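import Mathlib

/-!
# Sections with a commutator form

Let `A ≤ N` be normal subgroups of `G`, with `A` central in `N` and cyclic, and `N / A` elementary abelian.
Commutators then define an alternating form on `N / A`, nondegenerate if `Z(N) = A`.
-/

set_option autoImplicit false

namespace Cfsg.Agent.Lib.SolvLin

open Module
open scoped commutatorElement

universe u

variable {G : Type u} [Group G]

theorem eq_bot_of_perfect [Group.IsSolvable G] (L : Subgroup G) (h : L ≤ ⁅L, L⁆) : L = ⊥ := by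
  by_contra hne
  exact absurd h (not_le_of_gt (Group.IsSolvable.commutator_lt_of_ne_bot hne))

theorem comm_eq_mul_inv (x y : G) : ⁅x, y⁆ = (x * y) * (y * x)⁻¹ := by
  rw [commutatorElement_def]
  group

theorem comm_mul_central {l a l' a' : G} (h1 : Commute a l) (h2 : Commute a l') (h3 : Commute a' l)
    (h4 : Commute a' l') (h5 : Commute a a') : ⁅l * a, l' * a'⁆ = ⁅l, l'⁆ := by
  have e1 : (l * a) * (l' * a') = (l * l') * (a * a') := by
    rw [mul_assoc, ← mul_assoc a, h2.eq, mul_assoc l', ← mul_assoc]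
  have e2 : (l' * a') * (l * a) = (l' * l) * (a * a') := by
    rw [mul_assoc, ← mul_assoc a', h3.eq, mul_assoc l, ← mul_assoc, h5.symm.eq]
  rw [comm_eq_mul_inv, comm_eq_mul_inv, e1, e2]
  group

/-- A minimal normal section above a central subgroup of a solvable group is elementary abelian. -/
theorem exists_elementary_section [Finite G] [Group.IsSolvable G] (A D : Subgroup G) [A.Normal] [D.Normal]
    (hAD : A < D) (hcent : ∀ a ∈ A, ∀ t ∈ D, a * t = t * a) :
    ∃ (N : Subgroup G) (r : ℕ), N.Normal ∧ A < N ∧ N ≤ D ∧ r.Prime ∧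
      (∀ s ∈ N, ∀ t ∈ N, ⁅s, t⁆ ∈ A) ∧ ∀ t ∈ N, t ^ r ∈ A := by
  classical
  have hwf : WellFoundedLT (Subgroup G) := Finite.to_wellFoundedLT
  obtain ⟨N, ⟨hNn, hAN, hND⟩, hmin⟩ := hwf.wf.has_min {N : Subgroup G | N.Normal ∧ A < N ∧ N ≤ D}
    ⟨D, inferInstance, hAD, le_rfl⟩
  haveI := hNn
  have hcomm : ⁅N, N⁆ ≤ A := by
    by_contra hne
    have hlt : A < ⁅N, N⁆ ⊔ A := lt_of_le_of_ne le_sup_right (fun h => hne (le_sup_left.trans h.ge))
    have hle : ⁅N, N⁆ ⊔ A ≤ N := sup_le (Subgroup.commutator_le_left N N) hAN.le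
    have heq : ⁅N, N⁆ ⊔ A = N := by
      by_contra h
      exact hmin _ ⟨inferInstance, hlt, hle.trans hND⟩ (lt_of_le_of_ne hle h)
    have hL : ⁅N, N⁆ ≤ ⁅⁅N, N⁆, ⁅N, N⁆⁆ := by
      rw [Subgroup.commutator_le]
      intro s hs t ht
      have hs' : s ∈ ⁅N, N⁆ ⊔ A := by rw [heq]; exact hs
      have ht' : t ∈ ⁅N, N⁆ ⊔ A := by rw [heq]; exact ht
      obtain ⟨l, hl, a, ha, rfl⟩ := Subgroup.mem_sup_of_normal_right.1 hs'
      obtain ⟨l', hl', a', ha', rfl⟩ := Subgroup.mem_sup_of_normal_right.1 ht'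
      have hlN : l ∈ D := hND (Subgroup.commutator_le_left N N hl)
      have hl'N : l' ∈ D := hND (Subgroup.commutator_le_left N N hl')
      rw [comm_mul_central (hcent a ha l hlN) (hcent a ha l' hl'N) (hcent a' ha' l hlN)
        (hcent a' ha' l' hl'N) (hcent a ha a' (hAN.le.trans hND ha'))]
      exact Subgroup.commutator_mem_commutator hl hl'
    have h0 := eq_bot_of_perfect _ hL
    rw [h0, bot_sup_eq] at heq
    exact hAN.ne heq
  have hcomm' : ∀ s ∈ N, ∀ t ∈ N, ⁅s, t⁆ ∈ A := fun s hs t ht =>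
    hcomm (Subgroup.commutator_mem_commutator hs ht)
  obtain ⟨t0, ht0, ht0A⟩ := SetLike.exists_of_lt hAN
  have hex : ∃ k, 0 < k ∧ t0 ^ k ∈ A :=
    ⟨orderOf t0, orderOf_pos t0, by rw [pow_orderOf_eq_one]; exact A.one_mem⟩
  obtain ⟨hk0, hkA⟩ := Nat.find_spec hex
  have hk1 : Nat.find hex ≠ 1 := by
    intro h
    rw [h, pow_one] at hkA
    exact ht0A hkA
  obtain ⟨r, hr, q, hq⟩ := Nat.exists_prime_and_dvd hk1
  have hq0 : 0 < q := by
    rcases Nat.eq_zero_or_pos q with rfl | h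
    · rw [mul_zero] at hq
      omega
    · exact h
  have hqlt : q < Nat.find hex := by
    rw [hq]
    exact lt_mul_of_one_lt_left hq0 hr.one_lt
  have ht1A : t0 ^ q ∉ A := fun h => Nat.find_min hex hqlt ⟨hq0, h⟩
  have ht1r : (t0 ^ q) ^ r ∈ A := by
    rw [← pow_mul, mul_comm, ← hq]
    exact hkA
  -- the subgroup of elements with `r`-th power in `A`
  let E : Subgroup G :=
    { carrier := {u | u ∈ N ∧ u ^ r ∈ A}
      mul_mem' := by
        rintro u v ⟨hu, hu'⟩ ⟨hv, hv'⟩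
        refine ⟨N.mul_mem hu hv, ?_⟩
        have hc : Commute (QuotientGroup.mk u : G ⧸ A) (QuotientGroup.mk v : G ⧸ A) := by
          show (QuotientGroup.mk u : G ⧸ A) * QuotientGroup.mk v = QuotientGroup.mk v * QuotientGroup.mk u
          rw [← QuotientGroup.mk_mul, ← QuotientGroup.mk_mul]
          symm
          rw [QuotientGroup.eq]
          have := hcomm' u⁻¹ (N.inv_mem hu) v⁻¹ (N.inv_mem hv)
          have h2 : (v * u)⁻¹ * (u * v) = ⁅u⁻¹, v⁻¹⁆ := by
            rw [commutatorElement_def]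
            group
          rw [h2]
          exact this
        rw [← QuotientGroup.eq_one_iff, QuotientGroup.mk_pow, QuotientGroup.mk_mul, hc.mul_pow,
          ← QuotientGroup.mk_pow, ← QuotientGroup.mk_pow,
          (QuotientGroup.eq_one_iff _).2 hu', (QuotientGroup.eq_one_iff _).2 hv', one_mul]
      one_mem' := ⟨N.one_mem, by rw [one_pow]; exact A.one_mem⟩
      inv_mem' := by
        rintro u ⟨hu, hu'⟩
        refine ⟨N.inv_mem hu, ?_⟩
        rw [inv_pow]
        exact A.inv_mem hu' }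
  have hEn : E.Normal := by
    refine ⟨?_⟩
    rintro u ⟨hu, hu'⟩ g
    refine ⟨hNn.conj_mem u hu g, ?_⟩
    rw [conj_pow]
    exact (inferInstance : A.Normal).conj_mem _ hu' g
  have hAE : A < E := by
    refine lt_of_le_of_ne (fun a ha => ⟨hAN.le ha, A.pow_mem ha r⟩) ?_
    intro h
    have : t0 ^ q ∈ E := ⟨N.pow_mem ht0 q, ht1r⟩
    rw [← h] at this
    exact ht1A this
  have hEN : E ≤ N := fun u hu => hu.1
  have hEeq : E = N := by
    by_contra h
    exact hmin E ⟨hEn, hAE, hEN.trans hND⟩ (lt_of_le_of_ne hEN h)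
  refine ⟨N, r, hNn, hAN, hND, hr, hcomm', fun t ht => ?_⟩
  have : t ∈ E := hEeq ▸ ht
  exact this.2

theorem mem_zpowers_of_pow_eq_one {C : Type*} [Group C] [Finite C] [IsCyclic C] {r : ℕ} (hr : r.Prime)
    {c x : C} (hc1 : c ≠ 1) (hc : c ^ r = 1) (hx : x ^ r = 1) : x ∈ Subgroup.zpowers c := by
  classical
  haveI := Fintype.ofFinite C
  by_contra hnot
  have hle := IsCyclic.card_pow_eq_one_le (α := C) hr.pos
  haveI : Fact r.Prime := ⟨hr⟩
  have hord : orderOf c = r := orderOf_eq_prime hc hc1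
  let T : Finset C := Finset.univ.filter (· ∈ Subgroup.zpowers c)
  have hT : T.card = r := by
    rw [← hord, ← Nat.card_zpowers, Nat.card_eq_fintype_card, Fintype.card_subtype]
  have hsub : insert x T ⊆ Finset.univ.filter (fun y : C => y ^ r = 1) := by
    intro y hy
    rcases Finset.mem_insert.1 hy with rfl | hy
    · simpa using hx
    · have hy' : y ∈ Subgroup.zpowers c := (Finset.mem_filter.1 hy).2
      obtain ⟨k, rfl⟩ := hy'
      simp only [Finset.mem_filter, Finset.mem_univ, true_and]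
      rw [← zpow_natCast, ← zpow_mul, mul_comm, zpow_mul, zpow_natCast, hc, one_zpow]
  have h1 := Finset.card_le_card hsub
  rw [Finset.card_insert_of_notMem (fun h => hnot (Finset.mem_filter.1 h).2), hT] at h1
  omega

section Form

variable [Finite G] (A N : Subgroup G) [A.Normal] [N.Normal] {r : ℕ} [hr : Fact r.Prime]

/-- The abelian group `N / A` as a `F_r`-module. -/
theorem exists_quot (hAN : A ≤ N) (hcomm : ∀ s ∈ N, ∀ t ∈ N, ⁅s, t⁆ ∈ A) (hexp : ∀ t ∈ N, t ^ r ∈ A) :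
    ∃ (M : Type u) (_ : AddCommGroup M) (_ : Module (ZMod r) M) (_ : Finite M) (π : N → M),
      Function.Surjective π ∧ (∀ s t, π (s * t) = π s + π t) ∧ (∀ s, π s = 0 ↔ (s : G) ∈ A) ∧
      Nat.card M * Nat.card A = Nat.card N := by
  classical
  let Q := ↥N ⧸ A.subgroupOf N
  letI cQ : CommGroup Q :=
    { (QuotientGroup.Quotient.group (A.subgroupOf N)) with
      mul_comm := by
        intro a b
        induction a using QuotientGroup.induction_on with
        | H s =>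
          induction b using QuotientGroup.induction_on with
          | H t =>
            change ((s * t : ↥N) : Q) = ((t * s : ↥N) : Q)
            symm
            rw [QuotientGroup.eq, Subgroup.mem_subgroupOf]
            have h2 : (((t * s)⁻¹ * (s * t) : ↥N) : G) = ⁅(s : G)⁻¹, (t : G)⁻¹⁆ := by
              rw [commutatorElement_def]
              push_cast
              group
            rw [h2]
            exact hcomm _ (N.inv_mem s.2) _ (N.inv_mem t.2) }
  letI mM : Module (ZMod r) (Additive Q) := AddCommGroup.zmodModule (fun x => by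
    induction x using Additive.rec with
    | ofMul q =>
      induction q using QuotientGroup.induction_on with
      | H s =>
        rw [← ofMul_pow]
        have : ((s : Q)) ^ r = 1 := by
          rw [← QuotientGroup.mk_pow, QuotientGroup.eq_one_iff, Subgroup.mem_subgroupOf]
          exact hexp _ s.2
        rw [this]
        rfl)
  refine ⟨Additive Q, inferInstance, mM, inferInstance, fun s => Additive.ofMul (s : Q), ?_, ?_, ?_, ?_⟩
  · intro x
    induction x using Additive.rec with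
    | ofMul q =>
      induction q using QuotientGroup.induction_on with
      | H s => exact ⟨s, rfl⟩
  · intro s t
    rfl
  · intro s
    change (s : Q) = 1 ↔ _
    rw [QuotientGroup.eq_one_iff, Subgroup.mem_subgroupOf]
  · have h1 := Subgroup.card_eq_card_quotient_mul_card_subgroup (A.subgroupOf N)
    have h2 : Nat.card (A.subgroupOf N) = Nat.card A :=
      Nat.card_congr (Subgroup.subgroupOfEquivOfLe hAN).toEquiv
    rw [h2] at h1
    exact h1.symm

end Form

section Comm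

variable {A N : Subgroup G}

theorem comm_mul_left (hAN : A ≤ N) (hcent : ∀ a ∈ A, ∀ t ∈ N, a * t = t * a)
    (hcomm : ∀ s ∈ N, ∀ t ∈ N, ⁅s, t⁆ ∈ A) {s s' t : G} (hs : s ∈ N) (hs' : s' ∈ N) (ht : t ∈ N) :
    ⁅s * s', t⁆ = ⁅s, t⁆ * ⁅s', t⁆ := by
  have h1 : ⁅s * s', t⁆ = s * ⁅s', t⁆ * s⁻¹ * ⁅s, t⁆ := by
    simp only [commutatorElement_def]
    group
  have hc := hcomm s' hs' t ht
  have hd := hcomm s hs t ht
  have h2 : s * ⁅s', t⁆ * s⁻¹ = ⁅s', t⁆ := by
    rw [← hcent _ hc s hs, mul_assoc, mul_inv_cancel, mul_one]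
  rw [h1, h2, hcent _ hc _ (hAN hd)]

theorem comm_mul_right (hAN : A ≤ N) (hcent : ∀ a ∈ A, ∀ t ∈ N, a * t = t * a)
    (hcomm : ∀ s ∈ N, ∀ t ∈ N, ⁅s, t⁆ ∈ A) {s t t' : G} (hs : s ∈ N) (ht : t ∈ N) (ht' : t' ∈ N) :
    ⁅s, t * t'⁆ = ⁅s, t⁆ * ⁅s, t'⁆ := by
  have h1 : ⁅s, t * t'⁆ = ⁅s, t⁆ * (t * ⁅s, t'⁆ * t⁻¹) := by
    simp only [commutatorElement_def]
    group
  have hc := hcomm s hs t' ht'
  have h2 : t * ⁅s, t'⁆ * t⁻¹ = ⁅s, t'⁆ := by
    rw [← hcent _ hc t ht, mul_assoc, mul_inv_cancel, mul_one]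
  rw [h1, h2]

theorem comm_pow_left (hAN : A ≤ N) (hcent : ∀ a ∈ A, ∀ t ∈ N, a * t = t * a)
    (hcomm : ∀ s ∈ N, ∀ t ∈ N, ⁅s, t⁆ ∈ A) {s t : G} (hs : s ∈ N) (ht : t ∈ N) (k : ℕ) :
    ⁅s ^ k, t⁆ = ⁅s, t⁆ ^ k := by
  induction k with
  | zero => simp [commutatorElement_def]
  | succ k ih =>
    rw [pow_succ, comm_mul_left hAN hcent hcomm (N.pow_mem hs k) hs ht, ih, pow_succ]

theorem comm_of_central {a t : G} (h : a * t = t * a) : ⁅a, t⁆ = 1 :=
  commutatorElement_eq_one_iff_mul_comm.2 h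

end Comm

/-- The commutator map with values in `ZMod r`. -/
theorem exists_beta [Finite G] (A N : Subgroup G) {r : ℕ} [hr : Fact r.Prime]
    (hAN : A ≤ N) (hcent : ∀ a ∈ A, ∀ t ∈ N, a * t = t * a)
    (hcomm : ∀ s ∈ N, ∀ t ∈ N, ⁅s, t⁆ ∈ A) (hexp : ∀ t ∈ N, t ^ r ∈ A)
    (hcyc : IsCyclic A) (hna : ∃ s ∈ N, ∃ t ∈ N, s * t ≠ t * s) :
    ∃ β : ↥N → ↥N → ZMod r,
      (∀ s s' t, β (s * s') t = β s t + β s' t) ∧ (∀ s t t', β s (t * t') = β s t + β s t') ∧
      (∀ s t, β s t = 0 ↔ (s : G) * t = t * s) ∧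
      (∀ (g : G) (s t s' t' : ↥N), (s' : G) = g * s * g⁻¹ → (t' : G) = g * t * g⁻¹ →
        (∀ a ∈ A, g * a = a * g) → β s' t' = β s t) ∧ r ∣ Nat.card A := by
  classical
  obtain ⟨s0, hs0, t0, ht0, hne⟩ := hna
  have hrp : ∀ s ∈ N, ∀ t ∈ N, ⁅s, t⁆ ^ r = 1 := by
    intro s hs t ht
    rw [← comm_pow_left hAN hcent hcomm hs ht]
    exact comm_of_central (hcent _ (hexp s hs) t ht)
  set c0 := ⁅s0, t0⁆ with hc0
  have hc0A : c0 ∈ A := hcomm s0 hs0 t0 ht0
  have hc0ne : c0 ≠ 1 := fun h => hne (commutatorElement_eq_one_iff_mul_comm.1 h)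
  have hc0r : c0 ^ r = 1 := hrp s0 hs0 t0 ht0
  have hord : orderOf c0 = r := orderOf_eq_prime hc0r hc0ne
  have hmem : ∀ x ∈ A, x ^ r = 1 → x ∈ Subgroup.zpowers c0 := by
    intro x hx hxr
    have h1 : (⟨x, hx⟩ : A) ∈ Subgroup.zpowers (⟨c0, hc0A⟩ : A) := by
      apply mem_zpowers_of_pow_eq_one hr.out
      · intro h
        exact hc0ne (congrArg Subtype.val h)
      · exact Subtype.ext hc0r
      · exact Subtype.ext hxr
    obtain ⟨k, hk⟩ := h1
    exact ⟨k, congrArg Subtype.val hk⟩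
  have hcard : Nat.card (Subgroup.zpowers c0) = r := by
    rw [Nat.card_zpowers, hord]
  let e : Subgroup.zpowers c0 ≃* Multiplicative (ZMod r) :=
    mulEquivOfPrimeCardEq hcard (by simp [Nat.card_zmod])
  have hval : ∀ s t : ↥N, ⁅(s : G), (t : G)⁆ ∈ Subgroup.zpowers c0 := fun s t =>
    hmem _ (hcomm _ s.2 _ t.2) (hrp _ s.2 _ t.2)
  refine ⟨fun s t => Multiplicative.toAdd (e ⟨⁅(s : G), (t : G)⁆, hval s t⟩), ?_, ?_, ?_, ?_, ?_⟩
  · intro s s' t
    have h1 : (⟨⁅((s * s' : ↥N) : G), (t : G)⁆, hval (s * s') t⟩ : Subgroup.zpowers c0) =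
        ⟨⁅(s : G), (t : G)⁆, hval s t⟩ * ⟨⁅(s' : G), (t : G)⁆, hval s' t⟩ :=
      Subtype.ext (comm_mul_left hAN hcent hcomm s.2 s'.2 t.2)
    simp only [h1, map_mul, toAdd_mul]
  · intro s t t'
    have h1 : (⟨⁅(s : G), ((t * t' : ↥N) : G)⁆, hval s (t * t')⟩ : Subgroup.zpowers c0) =
        ⟨⁅(s : G), (t : G)⁆, hval s t⟩ * ⟨⁅(s : G), (t' : G)⁆, hval s t'⟩ :=
      Subtype.ext (comm_mul_right hAN hcent hcomm s.2 t.2 t'.2)
    simp only [h1, map_mul, toAdd_mul]
  · intro s t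
    constructor
    · intro h
      have h1 : e ⟨⁅(s : G), (t : G)⁆, hval s t⟩ = 1 := h
      have h2 := (map_eq_one_iff e e.injective).1 h1
      exact commutatorElement_eq_one_iff_mul_comm.1 (congrArg Subtype.val h2)
    · intro h
      have h1 : (⟨⁅(s : G), (t : G)⁆, hval s t⟩ : Subgroup.zpowers c0) = 1 :=
        Subtype.ext (commutatorElement_eq_one_iff_mul_comm.2 h)
      change Multiplicative.toAdd (e _) = 0
      rw [h1, map_one]
      rfl
  · intro g s t s' t' hs' ht' hg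
    have h1 : (⟨⁅(s' : G), (t' : G)⁆, hval s' t'⟩ : Subgroup.zpowers c0) = ⟨⁅(s : G), (t : G)⁆, hval s t⟩ := by
      apply Subtype.ext
      change ⁅(s' : G), (t' : G)⁆ = ⁅(s : G), (t : G)⁆
      rw [hs', ht', ← conjugate_commutatorElement, hg _ (hcomm _ s.2 _ t.2), mul_assoc, mul_inv_cancel,
        mul_one]
    change Multiplicative.toAdd (e _) = Multiplicative.toAdd (e _)
    rw [h1]
  · rw [← hord]
    have : orderOf (⟨c0, hc0A⟩ : A) = orderOf c0 := by
      exact (Subgroup.orderOf_mk c0 hc0A)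
    rw [← this]
    exact orderOf_dvd_natCard _

/-- **The commutator form on `N / A`.** -/
theorem exists_form [Finite G] (A N : Subgroup G) [A.Normal] [N.Normal] {r : ℕ} [hr : Fact r.Prime]
    (hAN : A ≤ N) (hcent : ∀ a ∈ A, ∀ t ∈ N, a * t = t * a)
    (hcomm : ∀ s ∈ N, ∀ t ∈ N, ⁅s, t⁆ ∈ A) (hexp : ∀ t ∈ N, t ^ r ∈ A)
    (hZ : ∀ t ∈ N, (∀ s ∈ N, s * t = t * s) → t ∈ A)
    (hcyc : IsCyclic A) (hna : ∃ s ∈ N, ∃ t ∈ N, s * t ≠ t * s) :
    ∃ (M : Type u) (_ : AddCommGroup M) (_ : Module (ZMod r) M) (_ : Finite M)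
      (π : ↥N → M) (B : M →ₗ[ZMod r] M →ₗ[ZMod r] ZMod r) (act : G →* (M ≃ₗ[ZMod r] M)),
      Function.Surjective π ∧ (∀ s t, π (s * t) = π s + π t) ∧ (∀ s, π s = 0 ↔ (s : G) ∈ A) ∧
      (∀ s t : ↥N, B (π s) (π t) = 0 ↔ (s : G) * t = t * s) ∧
      (∀ u, B u u = 0) ∧ (∀ u, (∀ v, B u v = 0) → u = 0) ∧
      (∀ (g : G) (s s' : ↥N), (s' : G) = g * s * g⁻¹ → act g (π s) = π s') ∧
      (∀ g : G, (∀ a ∈ A, g * a = a * g) → ∀ u v, B (act g u) (act g v) = B u v) ∧
      Nat.card M * Nat.card A = Nat.card N ∧ r ∣ Nat.card A := by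
  classical
  obtain ⟨M, _, _, _, π, hsurj, hadd, hzero, hcard⟩ := exists_quot (r := r) A N hAN hcomm hexp
  obtain ⟨β, hβ1, hβ2, hβ0, hβg, hrA⟩ := exists_beta (r := r) A N hAN hcent hcomm hexp hcyc hna
  -- section
  obtain ⟨sec, hsec⟩ := hsurj.hasRightInverse
  have hsec' : ∀ u, π (sec u) = u := hsec
  have hπ1 : π 1 = 0 := (hzero 1).2 A.one_mem
  have hπinv : ∀ s, π s⁻¹ = - π s := by
    intro s
    have h := hadd s⁻¹ s
    rw [inv_mul_cancel, hπ1] at h
    exact eq_neg_of_add_eq_zero_left h.symm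
  have hπeq : ∀ s s' : ↥N, π s = π s' → ((s⁻¹ * s' : ↥N) : G) ∈ A := by
    intro s s' h
    rw [← hzero, hadd, hπinv, h, neg_add_cancel]
  have hβA : ∀ a t : ↥N, (a : G) ∈ A → β a t = 0 := fun a t ha => (hβ0 a t).2 (hcent _ ha _ t.2)
  have hβA' : ∀ s a : ↥N, (a : G) ∈ A → β s a = 0 := fun s a ha => (hβ0 s a).2 (hcent _ ha _ s.2).symm
  have hβwd1 : ∀ s s' t : ↥N, π s = π s' → β s t = β s' t := by
    intro s s' t h
    have h1 := hβ1 s (s⁻¹ * s') t
    rw [mul_inv_cancel_left, hβA _ _ (hπeq s s' h), add_zero] at h1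
    exact h1.symm
  have hβwd2 : ∀ s t t' : ↥N, π t = π t' → β s t = β s t' := by
    intro s t t' h
    have h1 := hβ2 s t (t⁻¹ * t')
    rw [mul_inv_cancel_left, hβA' _ _ (hπeq t t' h), add_zero] at h1
    exact h1.symm
  let f : M → M → ZMod r := fun u v => β (sec u) (sec v)
  have hf : ∀ s t, f (π s) (π t) = β s t := by
    intro s t
    change β (sec (π s)) (sec (π t)) = β s t
    rw [hβwd1 (sec (π s)) s _ (hsec' _), hβwd2 s (sec (π t)) t (hsec' _)]
  have hf1 : ∀ u u' v, f (u + u') v = f u v + f u' v := by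
    intro u u' v
    obtain ⟨s, rfl⟩ := hsurj u
    obtain ⟨s', rfl⟩ := hsurj u'
    obtain ⟨t, rfl⟩ := hsurj v
    rw [← hadd, hf, hf, hf, hβ1]
  have hf2 : ∀ u v v', f u (v + v') = f u v + f u v' := by
    intro u v v'
    obtain ⟨s, rfl⟩ := hsurj u
    obtain ⟨t, rfl⟩ := hsurj v
    obtain ⟨t', rfl⟩ := hsurj v'
    rw [← hadd, hf, hf, hf, hβ2]
  let F : M → (M →ₗ[ZMod r] ZMod r) := fun u => (AddMonoidHom.mk' (f u) (hf2 u)).toZModLinearMap r
  have hFadd : ∀ u u', F (u + u') = F u + F u' := by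
    intro u u'
    apply LinearMap.ext
    intro v
    exact hf1 u u' v
  let B : M →ₗ[ZMod r] M →ₗ[ZMod r] ZMod r := (AddMonoidHom.mk' F hFadd).toZModLinearMap r
  have hB : ∀ s t, B (π s) (π t) = β s t := hf
  -- the action
  have hconjA : ∀ (g : G) (x : ↥N), (x : G) ∈ A → π (MulAut.conjNormal g x) = 0 := by
    intro g x hx
    rw [hzero, MulAut.conjNormal_apply]
    exact (inferInstance : A.Normal).conj_mem _ hx g
  have hact0 : ∀ (g : G) (s s' : ↥N), π s = π s' → π (MulAut.conjNormal g s) = π (MulAut.conjNormal g s') := by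
    intro g s s' h
    have h1 := hconjA g _ (hπeq s s' h)
    rw [map_mul, map_inv, hadd, hπinv] at h1
    have := neg_add_eq_zero.1 h1
    exact this
  let a : G → M → M := fun g u => π (MulAut.conjNormal g (sec u))
  have ha : ∀ g s, a g (π s) = π (MulAut.conjNormal g s) := fun g s => hact0 g _ _ (hsec' _)
  have haadd : ∀ g u v, a g (u + v) = a g u + a g v := by
    intro g u v
    obtain ⟨s, rfl⟩ := hsurj u
    obtain ⟨t, rfl⟩ := hsurj v
    rw [← hadd, ha, ha, ha, map_mul, hadd]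
  have hamul : ∀ g h u, a (g * h) u = a g (a h u) := by
    intro g h u
    obtain ⟨s, rfl⟩ := hsurj u
    rw [ha h s, ha g, ha (g * h), map_mul]
    rfl
  have haone : ∀ u, a 1 u = u := by
    intro u
    obtain ⟨s, rfl⟩ := hsurj u
    rw [ha, map_one]
    rfl
  let L : G → (M →ₗ[ZMod r] M) := fun g => (AddMonoidHom.mk' (a g) (haadd g)).toZModLinearMap r
  have hL : ∀ g u, L g u = a g u := fun g u => rfl
  let Le : G → (M ≃ₗ[ZMod r] M) := fun g =>
    LinearEquiv.ofLinearMap (L g) (L g⁻¹)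
      (LinearMap.ext fun u => by
        change a g (a g⁻¹ u) = u
        rw [← hamul, mul_inv_cancel, haone])
      (LinearMap.ext fun u => by
        change a g⁻¹ (a g u) = u
        rw [← hamul, inv_mul_cancel, haone])
  have hLe : ∀ g u, Le g u = a g u := fun g u => rfl
  let act : G →* (M ≃ₗ[ZMod r] M) := MonoidHom.mk' Le (by
    intro g h
    ext u
    change a (g * h) u = a g (a h u)
    exact hamul g h u)
  have hact : ∀ g u, act g u = a g u := fun g u => rfl
  refine ⟨M, inferInstance, inferInstance, inferInstance, π, B, act, hsurj, hadd, hzero, ?_, ?_, ?_, ?_, ?_,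
    hcard, hrA⟩
  · intro s t
    rw [hB, hβ0]
  · intro u
    obtain ⟨s, rfl⟩ := hsurj u
    rw [hB, hβ0]
  · intro u hu
    obtain ⟨s, rfl⟩ := hsurj u
    rw [hzero]
    apply hZ s s.2
    intro t ht
    have h1 := hu (π ⟨t, ht⟩)
    rw [hB, hβ0] at h1
    exact h1.symm
  · intro g s s' hs'
    rw [hact, ha]
    congr 1
    apply Subtype.ext
    rw [MulAut.conjNormal_apply, hs']
  · intro g hg u v
    obtain ⟨s, rfl⟩ := hsurj u
    obtain ⟨t, rfl⟩ := hsurj v
    rw [hact, hact, ha, ha, hB, hB]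
    exact hβg g s t _ _ (MulAut.conjNormal_apply g s) (MulAut.conjNormal_apply g t) hg

end Cfsg.Agent.Lib.SolvLin
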