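import Mathlib

/-!
# Fields generated by families of endomorphisms

A family of endomorphisms of a finite module such that the nonzero elements of the
algebra it generates are injective generates a field (Wedderburn).  This is packaged abstractly: a field
`F` with an injective algebra map `ψ : F → End W` whose range is the generated algebra.
-/

set_option autoImplicit false

namespace Cfsg.Agent.Lib.SolvLin

open Module

universe u v

theorem exists_field_of_adjoin {R : Type u} {W : Type v} [Field R] [AddCommGroup W] [Module R W] [Finite W]
    [Nontrivial W] [Finite R] (s : Set (Module.End R W))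
    (hinj : ∀ a ∈ Algebra.adjoin R s, a ≠ 0 → Function.Injective a) :
    ∃ (F : Type v) (_ : Field F) (_ : Algebra R F) (_ : Finite F) (ψ : F →ₐ[R] Module.End R W),
      Function.Injective ψ ∧ ψ.range = Algebra.adjoin R s := by
  classical
  haveI hfinE : Finite (Module.End R W) :=
    Finite.of_injective (fun f : Module.End R W => (f : W → W)) DFunLike.coe_injective
  haveI hfinS : Finite (Algebra.adjoin R s) := inferInstance
  have hfield : IsField (Algebra.adjoin R s) := by
    haveI : Nontrivial (Algebra.adjoin R s) := by
      refine ⟨⟨0, 1, ?_⟩⟩
      intro h
      have h1 : ((0 : Algebra.adjoin R s) : Module.End R W) = ((1 : Algebra.adjoin R s) : Module.End R W) :=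
        congrArg _ h
      obtain ⟨w, hw⟩ := exists_ne (0 : W)
      have h2 := LinearMap.congr_fun h1 w
      simp at h2
      exact hw h2.symm
    haveI : IsDomain (Algebra.adjoin R s) := by
      haveI : NoZeroDivisors (Algebra.adjoin R s) := by
        refine ⟨?_⟩
        intro a b hab
        by_contra hcon
        push Not at hcon
        obtain ⟨ha, hb⟩ := hcon
        have ha' : (a : Module.End R W) ≠ 0 := fun h => ha (Subtype.ext h)
        have hb' : (b : Module.End R W) ≠ 0 := fun h => hb (Subtype.ext h)
        have h3 : ((a : Module.End R W) * (b : Module.End R W)) = 0 := by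
          have := congrArg (fun z : Algebra.adjoin R s => (z : Module.End R W)) hab
          simpa using this
        obtain ⟨w, hw⟩ : ∃ w, (b : Module.End R W) w ≠ 0 := by
          by_contra hall
          push Not at hall
          exact hb' (LinearMap.ext hall)
        have h4 : (a : Module.End R W) ((b : Module.End R W) w) = 0 := LinearMap.congr_fun h3 w
        have h5 := hinj a a.2 ha'
        exact hw (h5 (by rw [h4, map_zero]))
      exact NoZeroDivisors.to_isDomain _
    exact Finite.isDomain_to_isField _
  refine ⟨Algebra.adjoin R s, hfield.toField, (Algebra.adjoin R s).algebra, hfinS,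
    (Algebra.adjoin R s).val, Subtype.val_injective, ?_⟩
  ext x
  simp

end Cfsg.Agent.Lib.SolvLin
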