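import Mathlib
import Cfsg.Agent.Lib.SolvLin.FieldOfAdjoin

/-!
# The field generated by an abelian normal subgroup of a transitive linear group

Let `G` act linearly on the finite `F_p`-space `V`, transitively on the nonzero vectors, and let `A` be
an abelian normal subgroup.  Then the algebra generated by `A` is a field `K`, `G` acts on `K` by field
automorphisms with kernel `C_G(A)`, and `A` embeds in `Kˣ`.
-/

set_option autoImplicit false

namespace Cfsg.Agent.Lib.SolvLin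

open Module

universe u v

variable {p : ℕ} [hp : Fact p.Prime] {V : Type v} [AddCommGroup V] [Module (ZMod p) V]
  {G : Type u} [Group G]

/-- The linear map of a group element. -/
def endOf (ρ : G →* (V ≃ₗ[ZMod p] V)) : G →* Module.End (ZMod p) V :=
  (LinearEquiv.automorphismGroup.toLinearMapMonoidHom).comp ρ

@[simp] theorem endOf_apply (ρ : G →* (V ≃ₗ[ZMod p] V)) (g : G) (v : V) : endOf ρ g v = ρ g v := rfl

theorem endOf_inv_mul (ρ : G →* (V ≃ₗ[ZMod p] V)) (g : G) : endOf ρ g⁻¹ * endOf ρ g = 1 := by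
  rw [← map_mul, inv_mul_cancel, map_one]

theorem endOf_mul_inv (ρ : G →* (V ≃ₗ[ZMod p] V)) (g : G) : endOf ρ g * endOf ρ g⁻¹ = 1 := by
  rw [← map_mul, mul_inv_cancel, map_one]

/-- Conjugation preserves the algebra generated by a normal subgroup. -/
theorem conj_mem_adjoin (ρ : G →* (V ≃ₗ[ZMod p] V)) (A : Subgroup G) [A.Normal] (g : G)
    {X : Module.End (ZMod p) V} (hX : X ∈ Algebra.adjoin (ZMod p) (endOf ρ '' (A : Set G))) :
    endOf ρ g * X * endOf ρ g⁻¹ ∈ Algebra.adjoin (ZMod p) (endOf ρ '' (A : Set G)) := by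
  refine Algebra.adjoin_induction
    (p := fun X _ => endOf ρ g * X * endOf ρ g⁻¹ ∈ Algebra.adjoin (ZMod p) (endOf ρ '' (A : Set G)))
    ?_ ?_ ?_ ?_ hX
  · rintro _ ⟨a, ha, rfl⟩
    apply Algebra.subset_adjoin
    refine ⟨g * a * g⁻¹, (inferInstance : A.Normal).conj_mem a ha g, ?_⟩
    rw [map_mul, map_mul]
  · intro c
    have h1 : endOf ρ g * algebraMap (ZMod p) (Module.End (ZMod p) V) c =
        algebraMap (ZMod p) (Module.End (ZMod p) V) c * endOf ρ g := (Algebra.commutes c _).symm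
    rw [h1, mul_assoc, endOf_mul_inv, mul_one]
    exact Subalgebra.algebraMap_mem _ c
  · intro X Y _ _ hX hY
    rw [mul_add, add_mul]
    exact Subalgebra.add_mem _ hX hY
  · intro X Y _ _ hX hY
    have : endOf ρ g * (X * Y) * endOf ρ g⁻¹ =
        (endOf ρ g * X * endOf ρ g⁻¹) * (endOf ρ g * Y * endOf ρ g⁻¹) := by
      calc endOf ρ g * (X * Y) * endOf ρ g⁻¹
          = endOf ρ g * X * 1 * Y * endOf ρ g⁻¹ := by simp [mul_assoc]
        _ = endOf ρ g * X * (endOf ρ g⁻¹ * endOf ρ g) * Y * endOf ρ g⁻¹ := by rw [endOf_inv_mul]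
        _ = _ := by simp [mul_assoc]
    rw [this]
    exact Subalgebra.mul_mem _ hX hY

/-- The adjoint algebra of an abelian normal subgroup of a transitive group has injective nonzero
elements. -/
theorem adjoin_injective [Finite V] [Nontrivial V] (ρ : G →* (V ≃ₗ[ZMod p] V))
    (htrans : ∀ v w : V, v ≠ 0 → w ≠ 0 → ∃ g : G, ρ g v = w)
    (A : Subgroup G) [A.Normal] (hcomm : ∀ a ∈ A, ∀ b ∈ A, a * b = b * a) :
    ∀ a ∈ Algebra.adjoin (ZMod p) (endOf ρ '' (A : Set G)), a ≠ 0 → Function.Injective a := by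
  classical
  set S := Algebra.adjoin (ZMod p) (endOf ρ '' (A : Set G)) with hS
  have hcommS : ∀ a ∈ S, ∀ b ∈ S, a * b = b * a := by
    have hgen : ∀ x ∈ endOf ρ '' (A : Set G), ∀ y ∈ endOf ρ '' (A : Set G), x * y = y * x := by
      rintro _ ⟨a, ha, rfl⟩ _ ⟨b, hb, rfl⟩
      rw [← map_mul, ← map_mul, hcomm a ha b hb]
    have hc := Algebra.isMulCommutative_adjoin (ZMod p) hgen
    intro a ha b hb
    exact congrArg Subtype.val (hc.is_comm.comm (⟨a, ha⟩ : S) ⟨b, hb⟩)
  -- a minimal invariant subspace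
  let Inv : Submodule (ZMod p) V → Prop := fun W => ∀ X ∈ S, ∀ w ∈ W, X w ∈ W
  haveI hfinS : Finite (Submodule (ZMod p) V) :=
    Finite.of_injective (fun U : Submodule (ZMod p) V => (U : Set V)) SetLike.coe_injective
  have hwf : WellFoundedLT (Submodule (ZMod p) V) := Finite.to_wellFoundedLT
  obtain ⟨W₀, ⟨hW₀ne, hW₀i⟩, hW₀min⟩ := hwf.wf.has_min {W | W ≠ ⊥ ∧ Inv W}
    ⟨⊤, by simp, fun _ _ _ _ => Submodule.mem_top⟩
  obtain ⟨w₀, hw₀, hw₀ne⟩ := (Submodule.ne_bot_iff _).1 hW₀ne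
  -- every nonzero element of a cyclic module generates it
  have hgen : ∀ y ∈ W₀, y ≠ 0 → ∃ b ∈ S, b y = w₀ := by
    intro y hy hy0
    let W₁ : Submodule (ZMod p) V := (Subalgebra.toSubmodule S).map (LinearMap.applyₗ y)
    have hW₁le : W₁ ≤ W₀ := by
      rintro _ ⟨X, hX, rfl⟩
      exact hW₀i X hX y hy
    have hW₁y : y ∈ W₁ := ⟨1, Subalgebra.one_mem _, rfl⟩
    have hW₁i : Inv W₁ := by
      rintro X hX _ ⟨Y, hY, rfl⟩
      exact ⟨X * Y, Subalgebra.mul_mem _ hX hY, rfl⟩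
    have hW₁ne : W₁ ≠ ⊥ := by
      intro h
      rw [h, Submodule.mem_bot] at hW₁y
      exact hy0 hW₁y
    have heq : W₁ = W₀ := by
      by_contra hne
      exact hW₀min W₁ ⟨hW₁ne, hW₁i⟩ (lt_of_le_of_ne hW₁le hne)
    have : w₀ ∈ W₁ := heq ▸ hw₀
    obtain ⟨b, hb, hby⟩ := this
    exact ⟨b, hb, hby⟩
  -- the key property
  have hkey : ∀ v : V, ∀ a ∈ S, a v ≠ 0 → ∃ b ∈ S, b (a v) = v := by
    intro v a ha hav
    have hv : v ≠ 0 := by
      rintro rfl
      simp at hav
    obtain ⟨g, hg⟩ := htrans w₀ v hw₀ne hv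
    have ha' : endOf ρ g⁻¹ * a * endOf ρ g⁻¹⁻¹ ∈ S := conj_mem_adjoin ρ A g⁻¹ ha
    rw [inv_inv] at ha'
    set a' := endOf ρ g⁻¹ * a * endOf ρ g with ha'def
    have h1 : a' w₀ = ρ g⁻¹ (a v) := by
      rw [ha'def]
      change ρ g⁻¹ (a (ρ g w₀)) = _
      rw [hg]
    have h2 : a' w₀ ≠ 0 := by
      rw [h1]
      intro h0
      apply hav
      exact (ρ g⁻¹).injective (by rw [h0, map_zero])
    obtain ⟨b₀, hb₀, hb₀y⟩ := hgen _ (hW₀i a' ha' w₀ hw₀) h2
    refine ⟨endOf ρ g * b₀ * endOf ρ g⁻¹, conj_mem_adjoin ρ A g hb₀, ?_⟩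
    change ρ g (b₀ (ρ g⁻¹ (a v))) = v
    rw [← h1, hb₀y, hg]
  intro a ha ha0
  rw [injective_iff_map_eq_zero]
  intro w hw
  by_contra hw0
  obtain ⟨v, hv⟩ : ∃ v, a v ≠ 0 := by
    by_contra hcon
    push Not at hcon
    exact ha0 (LinearMap.ext hcon)
  have h1 : a (v + w) ≠ 0 := by rwa [map_add, hw, add_zero]
  obtain ⟨b, hb, hbv⟩ := hkey (v + w) a ha h1
  rw [map_add, hw, add_zero] at hbv
  -- `w = (b a - 1) v`
  have hc : (b * a - 1) ∈ S := Subalgebra.sub_mem _ (Subalgebra.mul_mem _ hb ha) (Subalgebra.one_mem _)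
  have hcv : (b * a - 1) v = w := by
    change b (a v) - v = w
    rw [hbv, add_sub_cancel_left]
  obtain ⟨d, hd, hdv⟩ := hkey v _ hc (by rw [hcv]; exact hw0)
  rw [hcv] at hdv
  apply hv
  rw [← hdv]
  have : (a * d) w = (d * a) w := by rw [hcommS a ha d hd]
  change a (d w) = 0
  have h2 : (a * d) w = 0 := by
    rw [this]
    change d (a w) = 0
    rw [hw, map_zero]
  exact h2

/-- **The field of an abelian normal subgroup.** -/
theorem exists_field_of_abelian_normal [Finite V] [Nontrivial V] (ρ : G →* (V ≃ₗ[ZMod p] V))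
    (htrans : ∀ v w : V, v ≠ 0 → w ≠ 0 → ∃ g : G, ρ g v = w)
    (A : Subgroup G) [A.Normal] (hcomm : ∀ a ∈ A, ∀ b ∈ A, a * b = b * a) :
    ∃ (K : Type v) (_ : Field K) (_ : Algebra (ZMod p) K) (_ : Finite K)
      (ψ : K →ₐ[ZMod p] Module.End (ZMod p) V),
      Function.Injective ψ ∧ ψ.range = Algebra.adjoin (ZMod p) (endOf ρ '' (A : Set G)) :=
  exists_field_of_adjoin _ (adjoin_injective ρ htrans A hcomm)

section Field

variable {K : Type v} [Field K] [Algebra (ZMod p) K] [Finite K]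
  (ρ : G →* (V ≃ₗ[ZMod p] V)) (A : Subgroup G) [A.Normal]
  (ψ : K →ₐ[ZMod p] Module.End (ZMod p) V)
  (hψ : Function.Injective ψ)
  (hr : ψ.range = Algebra.adjoin (ZMod p) (endOf ρ '' (A : Set G)))

include hψ hr in
/-- The Galois action of `G` on the field. -/
theorem exists_sigma : ∃ σ : G →* (K ≃ₐ[ZMod p] K),
    ∀ g k, ψ (σ g k) = endOf ρ g * ψ k * endOf ρ g⁻¹ := by
  classical
  have h1 : ∀ (g : G) (k : K), ∃ k', ψ k' = endOf ρ g * ψ k * endOf ρ g⁻¹ := by
    intro g k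
    have hk : ψ k ∈ Algebra.adjoin (ZMod p) (endOf ρ '' (A : Set G)) := by
      rw [← hr]
      exact ⟨k, rfl⟩
    have := conj_mem_adjoin ρ A g hk
    rw [← hr] at this
    exact this
  choose s hs using h1
  have hs1 : ∀ (g h : G) k, s (g * h) k = s g (s h k) := by
    intro g h k
    apply hψ
    rw [hs, hs, hs, map_mul, mul_inv_rev, map_mul]
    simp only [mul_assoc]
  have hs2 : ∀ k, s 1 k = k := by
    intro k
    apply hψ
    rw [hs]
    simp
  let f : G → (K ≃ₐ[ZMod p] K) := fun g =>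
    { toFun := s g
      invFun := s g⁻¹
      left_inv := fun k => by rw [← hs1, inv_mul_cancel, hs2]
      right_inv := fun k => by rw [← hs1, mul_inv_cancel, hs2]
      map_mul' := fun a b => by
        apply hψ
        rw [hs, map_mul, map_mul, hs, hs]
        calc endOf ρ g * (ψ a * ψ b) * endOf ρ g⁻¹
            = endOf ρ g * ψ a * 1 * ψ b * endOf ρ g⁻¹ := by simp [mul_assoc]
          _ = endOf ρ g * ψ a * (endOf ρ g⁻¹ * endOf ρ g) * ψ b * endOf ρ g⁻¹ := by rw [endOf_inv_mul]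
          _ = _ := by simp [mul_assoc]
      map_add' := fun a b => by
        apply hψ
        rw [hs, map_add, map_add, hs, hs, mul_add, add_mul]
      commutes' := fun c => by
        apply hψ
        rw [hs, AlgHom.commutes]
        have h1 : endOf ρ g * algebraMap (ZMod p) (Module.End (ZMod p) V) c =
            algebraMap (ZMod p) (Module.End (ZMod p) V) c * endOf ρ g := (Algebra.commutes c _).symm
        rw [h1, mul_assoc, endOf_mul_inv, mul_one] }
  refine ⟨MonoidHom.mk' f ?_, fun g k => hs g k⟩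
  intro g h
  ext k
  exact hs1 g h k

include hr in
theorem exists_of_mem (a : G) (ha : a ∈ A) : ∃ k, ψ k = endOf ρ a := by
  have : endOf ρ a ∈ ψ.range := by
    rw [hr]
    exact Algebra.subset_adjoin ⟨a, ha, rfl⟩
  exact this

include hr in
/-- An element centralizing `A` commutes with the field. -/
theorem commute_of_centralizes (g : G) (hg : ∀ a ∈ A, g * a = a * g) (k : K) :
    endOf ρ g * ψ k = ψ k * endOf ρ g := by
  have hk : ψ k ∈ Algebra.adjoin (ZMod p) (endOf ρ '' (A : Set G)) := by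
    rw [← hr]
    exact ⟨k, rfl⟩
  refine Algebra.adjoin_induction
    (p := fun X _ => endOf ρ g * X = X * endOf ρ g) ?_ ?_ ?_ ?_ hk
  · rintro _ ⟨a, ha, rfl⟩
    rw [← map_mul, ← map_mul, hg a ha]
  · intro c
    exact (Algebra.commutes c _).symm
  · intro X Y _ _ hX hY
    rw [mul_add, add_mul, hX, hY]
  · intro X Y _ _ hX hY
    rw [← mul_assoc, hX, mul_assoc, hY, mul_assoc]

include hψ hr in
/-- `A` embeds in the multiplicative group of the field. -/
theorem exists_iota [Nontrivial V] : ∃ ι : A →* Kˣ, ∀ a : A, ψ (ι a : K) = endOf ρ (a : G) := by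
  classical
  have h1 : ∀ a : A, ∃ k, ψ k = endOf ρ (a : G) := fun a => exists_of_mem ρ A ψ hr a a.2
  choose s hs using h1
  have hs0 : ∀ a, s a ≠ 0 := by
    intro a h0
    have h2 := hs a
    rw [h0, map_zero] at h2
    obtain ⟨v, hv⟩ := exists_ne (0 : V)
    have h3 : endOf ρ (a : G) v = 0 := by rw [← h2]; rfl
    exact hv ((ρ (a : G)).injective (by rw [endOf_apply] at h3; rw [h3, map_zero]))
  have hmul : ∀ a b, s (a * b) = s a * s b := by
    intro a b
    apply hψ
    rw [hs, map_mul, hs, hs]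
    simp
  refine ⟨MonoidHom.mk' (fun a => Units.mk0 (s a) (hs0 a)) ?_, fun a => hs a⟩
  intro a b
  ext
  exact hmul a b

end Field

end Cfsg.Agent.Lib.SolvLin
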