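import Mathlib
import Cfsg.Agent.Lib.SolvLin.FieldOfAdjoin

/-!
# Elements of prime order in symplectic groups

If `x` is an isometry of prime order `ℓ` (odd, different from the characteristic `r`) of a nondegenerate
alternating form on a finite `F_r`-space `M` and `x ≠ 1`, then `ℓ ≤ √#M + 1`.  In the case of equality
`M` is the norm-one situation: `x` has no nonzero fixed point, and `√#M` is a power of `r`.
-/

set_option autoImplicit false

namespace Cfsg.Agent.Lib.SolvLin

open Module

/-- An element `t ∉ F₀` with `t + t⁻¹ ∈ F₀` of a finite field: `t ^ #F₀ = t⁻¹`, and `F` has degree at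
least two over `F₀`. -/
theorem pow_card_subfield {F : Type*} [Field F] [Finite F] (F₀ : Subfield F) {t : F} (ht0 : t ≠ 0)
    (hy : t + t⁻¹ ∈ F₀) (ht : t ∉ F₀) :
    t ^ Nat.card F₀ = t⁻¹ ∧ Nat.card F₀ ^ 2 ≤ Nat.card F := by
  classical
  haveI := Fintype.ofFinite F
  haveI : Fintype F₀ := Fintype.ofFinite F₀
  have hs' : Nat.card F₀ = Fintype.card F₀ := Nat.card_eq_fintype_card
  set s := Nat.card F₀ with hs
  have hfix : ∀ a ∈ F₀, a ^ s = a := by
    intro a ha
    have := FiniteField.pow_card (⟨a, ha⟩ : F₀)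
    rw [← hs'] at this
    exact congrArg Subtype.val this
  have hs2 : 1 < s := by
    rw [hs']
    exact Fintype.one_lt_card
  have heq : t ^ 2 - (t + t⁻¹) * t + 1 = 0 := by
    field_simp
    ring
  have h1 : (t ^ s) ^ 2 - (t + t⁻¹) * t ^ s + 1 = 0 := by
    have h := congrArg (FiniteField.frobeniusAlgHom F₀ F) heq
    simp only [map_add, map_sub, map_mul, map_pow, map_one, map_zero] at h
    have hc : ∀ a : F, FiniteField.frobeniusAlgHom F₀ F a = a ^ s := by
      intro a
      rw [FiniteField.coe_frobeniusAlgHom, hs']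
    rw [hc t] at h
    have h2 : FiniteField.frobeniusAlgHom F₀ F t⁻¹ = t⁻¹ ^ s := hc _
    rw [h2] at h
    have h3 : t ^ s + t⁻¹ ^ s = t + t⁻¹ := by
      have h4 := hfix _ hy
      have h5 : (t + t⁻¹) ^ s = FiniteField.frobeniusAlgHom F₀ F (t + t⁻¹) := (hc _).symm
      rw [h5, map_add, hc t, h2] at h4
      exact h4
    rw [h3] at h
    exact h
  have h2 : (t ^ s - t) * (t ^ s - t⁻¹) = 0 := by
    have h3 : (t ^ s - t) * (t ^ s - t⁻¹) = (t ^ s) ^ 2 - (t + t⁻¹) * t ^ s + t * t⁻¹ := by ring
    rw [h3, mul_inv_cancel₀ ht0, h1]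
  constructor
  · rcases mul_eq_zero.1 h2 with h | h
    · exfalso
      have hts : t ^ s = t := sub_eq_zero.1 h
      -- count roots of `X ^ s - X`
      let Z : Finset F := insert t ((Finset.univ : Finset (↥F₀)).image (fun a : ↥F₀ => (a : F)))
      have hZcard : Z.card = s + 1 := by
        rw [Finset.card_insert_of_notMem]
        · rw [Finset.card_image_of_injective _ Subtype.val_injective, Finset.card_univ, hs']
        · intro hmem
          obtain ⟨a, -, ha⟩ := Finset.mem_image.1 hmem
          exact ht (ha ▸ a.2)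
      have hne : (Polynomial.X ^ s - Polynomial.X : Polynomial F) ≠ 0 :=
        FiniteField.X_pow_card_sub_X_ne_zero F hs2
      have hZ : Z.val ⊆ (Polynomial.X ^ s - Polynomial.X : Polynomial F).roots := by
        intro a ha
        rw [Polynomial.mem_roots hne, Polynomial.IsRoot.def]
        simp only [Polynomial.eval_sub, Polynomial.eval_pow, Polynomial.eval_X]
        have ha' : a ∈ Z := ha
        rcases Finset.mem_insert.1 ha' with rfl | hmem
        · rw [hts, sub_self]
        · obtain ⟨b, -, hb⟩ := Finset.mem_image.1 hmem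
          rw [← hb, hfix _ b.2, sub_self]
      have hle := Polynomial.card_le_degree_of_subset_roots hZ
      rw [FiniteField.X_pow_card_sub_X_natDegree_eq F hs2, hZcard] at hle
      omega
    · exact sub_eq_zero.1 h
  · have hcard : Nat.card F = s ^ finrank F₀ F := by
      rw [hs]
      exact Module.natCard_eq_pow_finrank
    have hd : 2 ≤ finrank F₀ F := by
      have hpos : 0 < finrank F₀ F := finrank_pos
      by_contra hlt
      have h1' : finrank F₀ F = 1 := by omega
      have := (finrank_eq_one_iff_of_nonzero' (1 : F) one_ne_zero).1 h1' t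
      obtain ⟨c, hc⟩ := this
      apply ht
      have hc' : (c : F) * 1 = t := hc
      rw [mul_one] at hc'
      exact hc' ▸ c.2
    rw [hcard]
    exact Nat.pow_le_pow_right (by omega) hd


section Main

variable {r : ℕ} [hr : Fact r.Prime] {M : Type*} [AddCommGroup M] [Module (ZMod r) M] [Finite M]

theorem symp_prime_bound
    (B : M →ₗ[ZMod r] M →ₗ[ZMod r] ZMod r)
    (halt : ∀ u, B u u = 0)
    (hnd : ∀ u, (∀ v, B u v = 0) → u = 0)
    (x : M ≃ₗ[ZMod r] M) (hiso : ∀ u v, B (x u) (x v) = B u v)
    {ℓ : ℕ} (hℓ : ℓ.Prime) (hodd : ℓ ≠ 2) (hℓr : ℓ ≠ r) (hx : x ^ ℓ = 1) (hne : x ≠ 1)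
    (m : ℕ) (hm : Nat.card M ≤ m ^ 2) :
    ℓ ≤ m + 1 ∧ (ℓ = m + 1 → Nat.card M = m ^ 2 ∧ (∀ u, x u = u → u = 0) ∧ ∃ i, m = r ^ i) := by
  classical
  haveI := Fintype.ofFinite M
  have hℓ0 : (ℓ : ZMod r) ≠ 0 := by
    intro h
    rw [ZMod.natCast_eq_zero_iff] at h
    exact hℓr ((Nat.prime_dvd_prime_iff_eq hr.out hℓ).1 h).symm
  have hxℓ : ∀ u, (x ^ ℓ) u = u := fun u => by rw [hx]; rfl
  have hanti : ∀ u v, B u v = - B v u := by
    intro u v
    have h := halt (u + v)
    simp only [map_add, LinearMap.add_apply, halt, zero_add, add_zero] at h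
    exact eq_neg_of_add_eq_zero_left (by rw [add_comm]; exact h)
  -- choose a minimal invariant subspace on which `x` is not trivial
  let Inv : Submodule (ZMod r) M → Prop := fun U => ∀ u ∈ U, x u ∈ U
  let P : Submodule (ZMod r) M → Prop := fun U => Inv U ∧ ∃ u ∈ U, x u ≠ u
  haveI hfinS : Finite (Submodule (ZMod r) M) :=
    Finite.of_injective (fun U : Submodule (ZMod r) M => (U : Set M)) SetLike.coe_injective
  have hwf : WellFoundedLT (Submodule (ZMod r) M) := Finite.to_wellFoundedLT
  have hPtop : P ⊤ := by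
    refine ⟨fun _ _ => Submodule.mem_top, ?_⟩
    by_contra hcon
    push Not at hcon
    apply hne
    ext u
    exact hcon u Submodule.mem_top
  obtain ⟨U, hPU, hUmin⟩ := hwf.wf.has_min {U | P U} ⟨⊤, hPtop⟩
  have hUinv : Inv U := hPU.1
  have hmin : ∀ W : Submodule (ZMod r) M, W ≤ U → W ≠ U → Inv W → ∀ w ∈ W, x w = w := by
    intro W hWU hWne hWi w hw
    by_contra hcon
    exact hUmin W ⟨hWi, w, hw, hcon⟩ (lt_of_le_of_ne hWU hWne)
  have hpow : ∀ n : ℕ, ∀ u ∈ U, (x ^ n) u ∈ U := by
    intro n
    induction n with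
    | zero => intro u hu; simpa using hu
    | succ k ih =>
      intro u hu
      rw [pow_succ']
      exact hUinv _ (ih u hu)
  -- the trace
  let T : M →ₗ[ZMod r] M := ∑ i ∈ Finset.range ℓ, (((x ^ i : M ≃ₗ[ZMod r] M)) : M →ₗ[ZMod r] M)
  have hT : ∀ u, T u = ∑ i ∈ Finset.range ℓ, (x ^ i) u := by
    intro u
    simp [T, LinearMap.sum_apply]
  have hTx : ∀ u, T (x u) = T u := by
    intro u
    rw [hT, hT]
    have h1 := Finset.sum_range_succ' (fun i => (x ^ i) u) ℓ
    have h2 := Finset.sum_range_succ (fun i => (x ^ i) u) ℓ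
    have h3 : ∀ i, (x ^ i) (x u) = (x ^ (i + 1)) u := by
      intro i
      rw [pow_succ]
      rfl
    simp only [h3]
    rw [h1] at h2
    rw [hxℓ] at h2
    simp only [pow_zero] at h2
    exact add_right_cancel h2
  have hTfix : ∀ u, x u = u → T u = (ℓ : ZMod r) • u := by
    intro u hu
    have h1 : ∀ i : ℕ, (x ^ i) u = u := by
      intro i
      induction i with
      | zero => rfl
      | succ k ih =>
        rw [pow_succ]
        change (x ^ k) (x u) = u
        rw [hu, ih]
    rw [hT]
    simp [h1, Nat.cast_smul_eq_nsmul]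
  have hTfix0 : ∀ u, x u = u → T u = 0 → u = 0 := by
    intro u hu h0
    rw [hTfix u hu] at h0
    exact (smul_eq_zero.1 h0).resolve_left hℓ0
  have hTzero : ∀ u ∈ U, T u = 0 := by
    by_contra hcon
    push Not at hcon
    obtain ⟨u0, hu0, hTu0⟩ := hcon
    let W : Submodule (ZMod r) M := U ⊓ LinearMap.ker T
    have hWU : W ≤ U := inf_le_left
    have hWne : W ≠ U := by
      intro h
      have : u0 ∈ W := h ▸ hu0
      exact hTu0 (LinearMap.mem_ker.1 this.2)
    have hWi : Inv W := by
      intro w hw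
      refine ⟨hUinv w hw.1, ?_⟩
      change T (x w) = 0
      rw [hTx]
      exact LinearMap.mem_ker.1 hw.2
    have hW := hmin W hWU hWne hWi
    obtain ⟨-, u, hu, hxu⟩ := hPU
    apply hxu
    have hmem : x u - u ∈ W := by
      refine ⟨U.sub_mem (hUinv u hu) hu, ?_⟩
      change T (x u - u) = 0
      rw [map_sub, hTx, sub_self]
    have h0 := hTfix0 _ (hW _ hmem) (LinearMap.mem_ker.1 hmem.2)
    exact sub_eq_zero.1 h0
  have hfree : ∀ u ∈ U, x u = u → u = 0 := fun u hu hxu => hTfix0 u hxu (hTzero u hu)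
  have hirr : ∀ W : Submodule (ZMod r) M, W ≤ U → Inv W → W = ⊥ ∨ W = U := by
    intro W hWU hWi
    by_cases h : W = U
    · exact Or.inr h
    · left
      rw [eq_bot_iff]
      intro w hw
      exact (Submodule.mem_bot _).2 (hfree w (hWU hw) (hmin W hWU h hWi w hw))
  -- the inverse preserves `U`
  have hxinv : ∀ u, x⁻¹ u = (x ^ (ℓ - 1)) u := by
    intro u
    have h1 : x ^ (ℓ - 1) * x = 1 := by
      rw [← pow_succ, Nat.sub_add_cancel hℓ.one_lt.le, hx]
    have h2 : x⁻¹ = x ^ (ℓ - 1) := (eq_inv_of_mul_eq_one_left h1).symm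
    rw [h2]
  have hUinv' : ∀ u ∈ U, x⁻¹ u ∈ U := fun u hu => by
    rw [hxinv]
    exact hpow _ u hu
  have hxx : ∀ u, x (x⁻¹ u) = u := by
    intro u
    have : (x * x⁻¹) u = u := by rw [mul_inv_cancel]; rfl
    exact this
  have hxx' : ∀ u, x⁻¹ (x u) = u := by
    intro u
    have : (x⁻¹ * x) u = u := by rw [inv_mul_cancel]; rfl
    exact this
  -- `U` is nontrivial
  have hUne : U ≠ ⊥ := by
    intro h
    obtain ⟨-, u, hu, hxu⟩ := hPU
    rw [h, Submodule.mem_bot] at hu
    exact hxu (by rw [hu, map_zero])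
  haveI hUnt : Nontrivial U := Submodule.nontrivial_iff_ne_bot.2 hUne
  -- the field generated by `x` on `U`
  let xU : Module.End (ZMod r) U := (x : M →ₗ[ZMod r] M).restrict (fun u hu => hUinv u hu)
  have hxU : ∀ u : U, ((xU u : U) : M) = x u := fun u => rfl
  have hcommU : ∀ a ∈ Algebra.adjoin (ZMod r) ({xU} : Set (Module.End (ZMod r) U)), a * xU = xU * a := by
    intro a ha
    refine Algebra.adjoin_induction (p := fun a _ => a * xU = xU * a) ?_ ?_ ?_ ?_ ha
    · intro y hy
      rw [Set.mem_singleton_iff.1 hy]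
    · intro c
      exact Algebra.commutes c xU
    · intro a b _ _ ha hb
      rw [add_mul, mul_add, ha, hb]
    · intro a b _ _ ha hb
      rw [mul_assoc, hb, ← mul_assoc, ha, mul_assoc]
  have hinj : ∀ a ∈ Algebra.adjoin (ZMod r) ({xU} : Set (Module.End (ZMod r) U)), a ≠ 0 →
      Function.Injective a := by
    intro a ha ha0
    let W : Submodule (ZMod r) M := (LinearMap.ker a).map U.subtype
    have hWU : W ≤ U := by
      rintro _ ⟨w, -, rfl⟩
      exact w.2
    have hWi : Inv W := by
      rintro _ ⟨w, hw, rfl⟩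
      refine ⟨xU w, ?_, rfl⟩
      have h1 : a (xU w) = xU (a w) := LinearMap.congr_fun (hcommU a ha) w
      rw [SetLike.mem_coe, LinearMap.mem_ker] at hw ⊢
      rw [h1, hw, map_zero]
    rcases hirr W hWU hWi with h | h
    · rw [← LinearMap.ker_eq_bot]
      rw [eq_bot_iff]
      intro w hw
      have : (w : M) ∈ W := ⟨w, hw, rfl⟩
      rw [h, Submodule.mem_bot] at this
      rw [Submodule.mem_bot]
      exact Subtype.ext this
    · exfalso
      apply ha0
      apply LinearMap.ext
      intro u
      have : (u : M) ∈ W := by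
        rw [h]
        exact u.2
      obtain ⟨w, hw, hwu⟩ := this
      have hwu' : w = u := Subtype.ext hwu
      rw [← hwu']
      exact LinearMap.mem_ker.1 hw
  obtain ⟨F, _, _, _, ψ, hψ, hψr⟩ := exists_field_of_adjoin ({xU} : Set (Module.End (ZMod r) U)) hinj
  obtain ⟨t, ht⟩ : ∃ t, ψ t = xU := by
    have : xU ∈ ψ.range := by
      rw [hψr]
      exact Algebra.subset_adjoin rfl
    exact this
  have hψx : ∀ u : U, ((ψ t u : U) : M) = x u := fun u => by rw [ht]; rfl
  have htpow : t ^ ℓ = 1 := by
    apply hψ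
    rw [map_pow, map_one]
    apply LinearMap.ext
    intro u
    apply Subtype.ext
    have h1 : ∀ n : ℕ, (((ψ t) ^ n) u : M) = (x ^ n) u := by
      intro n
      induction n with
      | zero => rfl
      | succ k ih =>
        rw [pow_succ', pow_succ']
        change ((ψ t (((ψ t) ^ k) u) : U) : M) = x ((x ^ k) u)
        rw [hψx, ih]
    rw [h1, hxℓ]
    rfl
  have ht1 : t ≠ 1 := by
    intro h
    obtain ⟨-, u, hu, hxu⟩ := hPU
    apply hxu
    have := hψx ⟨u, hu⟩
    rw [h, map_one] at this
    exact this.symm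
  have ht0 : t ≠ 0 := by
    intro h
    rw [h, zero_pow hℓ.ne_zero] at htpow
    exact zero_ne_one htpow
  have hord : orderOf t = ℓ := by
    haveI : Fact ℓ.Prime := ⟨hℓ⟩
    exact orderOf_eq_prime htpow ht1
  haveI : Fintype F := Fintype.ofFinite F
  have hFU : Nat.card F ≤ Nat.card U := by
    obtain ⟨u0, hu0⟩ := exists_ne (0 : U)
    refine Nat.card_le_card_of_injective (fun a : F => ψ a u0) ?_
    intro a b hab
    by_contra hne'
    have hsub : ψ (a - b) ≠ 0 := by
      intro h0
      apply hne'
      have : a - b = 0 := hψ (by rw [h0, map_zero])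
      exact sub_eq_zero.1 this
    have hmem : ψ (a - b) ∈ Algebra.adjoin (ZMod r) ({xU} : Set (Module.End (ZMod r) U)) := by
      rw [← hψr]
      exact ⟨_, rfl⟩
    have h1 := hinj _ hmem hsub
    have h2 : ψ (a - b) u0 = 0 := by
      rw [map_sub, LinearMap.sub_apply]
      exact sub_eq_zero.2 hab
    exact hu0 (h1 (by rw [h2, map_zero]))
  have hFℓ : ℓ ≤ Nat.card F - 1 := by
    have h1 : t ^ (Fintype.card F - 1) = 1 := FiniteField.pow_card_sub_one_eq_one t ht0
    have h2 := orderOf_dvd_of_pow_eq_one h1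
    rw [hord] at h2
    rw [Nat.card_eq_fintype_card]
    exact Nat.le_of_dvd (by
      have : 1 < Fintype.card F := Fintype.one_lt_card
      omega) h2
  have hUM : Nat.card U ≤ Nat.card M := Nat.card_le_card_of_injective _ U.subtype_injective
  have hFpos : 0 < Nat.card F := Nat.card_pos
  -- the radical of `U`
  let Rad : Submodule (ZMod r) M :=
    { carrier := {u | u ∈ U ∧ ∀ v ∈ U, B u v = 0}
      add_mem' := by
        rintro a b ⟨ha, ha'⟩ ⟨hb, hb'⟩
        refine ⟨U.add_mem ha hb, fun v hv => ?_⟩
        rw [map_add, LinearMap.add_apply, ha' v hv, hb' v hv, add_zero]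
      zero_mem' := ⟨U.zero_mem, fun v _ => by simp⟩
      smul_mem' := by
        rintro c a ⟨ha, ha'⟩
        refine ⟨U.smul_mem c ha, fun v hv => ?_⟩
        rw [map_smul, LinearMap.smul_apply, ha' v hv, smul_zero] }
  have hRadU : Rad ≤ U := fun u hu => hu.1
  have hRadI : Inv Rad := by
    intro u hu
    refine ⟨hUinv u hu.1, fun v hv => ?_⟩
    have h1 : B (x u) v = B (x u) (x (x⁻¹ v)) := by rw [hxx]
    rw [h1, hiso]
    exact hu.2 _ (hUinv' v hv)
  rcases hirr Rad hRadU hRadI with hRad | hRad
  · -- `U` is nondegenerate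
    have hnd' : ∀ u ∈ U, (∀ v ∈ U, B u v = 0) → u = 0 := by
      intro u hu h
      have : u ∈ Rad := ⟨hu, h⟩
      rw [hRad, Submodule.mem_bot] at this
      exact this
    have hadj : ∀ (a : F) (u v : U), a ∈ ({a | ∀ u v : U, B (ψ a u : U) (v : M) = B (u : M) (ψ a v : U)} : Set F) →
        B (ψ a u : U) (v : M) = B (u : M) (ψ a v : U) := fun a u v h => h u v
    let F₀ : Subfield F :=
      { carrier := {a | ∀ u v : U, B (ψ a u : U) (v : M) = B (u : M) (ψ a v : U)}
        mul_mem' := by
          intro a b ha hb u v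
          have h1 : ∀ w : U, ψ (a * b) w = ψ a (ψ b w) := fun w => by rw [map_mul]; rfl
          have h2 : ∀ w : U, ψ (a * b) w = ψ b (ψ a w) := fun w => by rw [mul_comm, map_mul]; rfl
          rw [h1 u, ha, hb, h2 v]
        one_mem' := by
          intro u v
          simp only [map_one]
          rfl
        add_mem' := by
          intro a b ha hb u v
          simp only [map_add, LinearMap.add_apply, Submodule.coe_add, LinearMap.add_apply]
          rw [ha, hb]
        zero_mem' := by
          intro u v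
          simp
        neg_mem' := by
          intro a ha u v
          simp only [map_neg, LinearMap.neg_apply, Submodule.coe_neg, LinearMap.neg_apply]
          rw [ha]
        inv_mem' := by
          intro a ha u v
          by_cases ha0 : a = 0
          · subst ha0
            simp
          · have h1 : ψ a (ψ a⁻¹ v) = v := by
              have : (ψ a * ψ a⁻¹) v = v := by
                rw [← map_mul, mul_inv_cancel₀ ha0, map_one]
                rfl
              exact this
            have h2 : ψ a (ψ a⁻¹ u) = u := by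
              have : (ψ a * ψ a⁻¹) u = u := by
                rw [← map_mul, mul_inv_cancel₀ ha0, map_one]
                rfl
              exact this
            have h3 := ha (ψ a⁻¹ u) (ψ a⁻¹ v)
            rw [h1, h2] at h3
            exact h3.symm }
    have htinv : ∀ u : U, ((ψ t⁻¹ u : U) : M) = x⁻¹ u := by
      intro u
      have h1 : ψ t (ψ t⁻¹ u) = u := by
        have : (ψ t * ψ t⁻¹) u = u := by
          rw [← map_mul, mul_inv_cancel₀ ht0, map_one]
          rfl
        exact this
      have h2 := hψx (ψ t⁻¹ u)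
      rw [h1] at h2
      rw [h2, hxx']
    have hadj1 : ∀ u v : U, B (x u) v = B u (x⁻¹ v) := by
      intro u v
      have h1 : B (x u) v = B (x u) (x (x⁻¹ v)) := by rw [hxx]
      rw [h1, hiso]
    have hadj2 : ∀ u v : U, B (x⁻¹ u) v = B u (x v) := by
      intro u v
      have h1 : B (x⁻¹ u) v = B (x (x⁻¹ u)) (x v) := by rw [hiso]
      rw [h1, hxx]
    have hy : t + t⁻¹ ∈ F₀ := by
      intro u v
      simp only [map_add, LinearMap.add_apply, Submodule.coe_add, LinearMap.add_apply, map_add]
      rw [hψx, hψx, htinv, htinv, hadj1, hadj2, add_comm]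
    have htF₀ : t ∉ F₀ := by
      intro hmem
      have hz : ∀ u v : U, B u ((ψ (t - t⁻¹) v : U) : M) = 0 := by
        intro u v
        have h1 := hmem u v
        rw [hψx, hψx, hadj1] at h1
        simp only [map_sub, LinearMap.sub_apply, Submodule.coe_sub, map_sub]
        rw [hψx, htinv]
        rw [← h1, sub_self]
      have hw : ∀ v : U, ψ (t - t⁻¹) v = 0 := by
        intro v
        apply Subtype.ext
        apply hnd' _ (ψ (t - t⁻¹) v).2
        intro w hw
        rw [hanti, hz ⟨w, hw⟩ v, neg_zero]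
      have h0 : ψ (t - t⁻¹) = 0 := LinearMap.ext hw
      have h1 : t - t⁻¹ = 0 := hψ (by rw [h0, map_zero])
      have h2 : t ^ 2 = 1 := by
        have : t = t⁻¹ := sub_eq_zero.1 h1
        rw [sq]
        nth_rw 1 [this]
        exact inv_mul_cancel₀ ht0
      have h3 := orderOf_dvd_of_pow_eq_one h2
      rw [hord] at h3
      exact hodd ((Nat.prime_dvd_prime_iff_eq hℓ Nat.prime_two).1 h3)
    obtain ⟨hts, hs2⟩ := pow_card_subfield F₀ ht0 hy htF₀
    set s := Nat.card F₀ with hs
    have htsp : t ^ (s + 1) = 1 := by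
      rw [pow_succ, hts, inv_mul_cancel₀ ht0]
    have hℓs : ℓ ≤ s + 1 := Nat.le_of_dvd (Nat.succ_pos _) (hord ▸ orderOf_dvd_of_pow_eq_one htsp)
    have hchain : s ^ 2 ≤ m ^ 2 := hs2.trans (hFU.trans (hUM.trans hm))
    have hsm : s ≤ m := (Nat.pow_le_pow_iff_left (by norm_num)).1 hchain
    refine ⟨by omega, fun heq => ?_⟩
    have hsm' : s = m := by omega
    have hcard1 : Nat.card M = m ^ 2 := le_antisymm hm (by
      rw [← hsm']
      exact hs2.trans (hFU.trans hUM))
    have hcard2 : Nat.card U = Nat.card M := le_antisymm hUM (by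
      rw [hcard1, ← hsm']
      exact hs2.trans hFU)
    have hUtop : ∀ u : M, u ∈ U := by
      have hbij := (Function.Injective.bijective_of_nat_card_le U.subtype_injective hcard2.ge).2
      intro u
      obtain ⟨w, hw⟩ := hbij u
      rw [← hw]
      exact w.2
    refine ⟨hcard1, fun u hu => hfree u (hUtop u) hu, ?_⟩
    -- `s` is a power of `r`
    haveI : CharP F r := charP_of_injective_algebraMap (algebraMap (ZMod r) F).injective r
    haveI : CharP F₀ r := by
      exact RingHom.charP F₀.subtype Subtype.val_injective r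
    haveI : Fintype F₀ := Fintype.ofFinite F₀
    obtain ⟨n, -, hn⟩ := FiniteField.card F₀ r
    refine ⟨n, ?_⟩
    rw [← hsm', hs, Nat.card_eq_fintype_card, hn]
  · -- `U` is totally isotropic
    have hiso0 : ∀ u ∈ U, ∀ v ∈ U, B u v = 0 := by
      intro u hu v hv
      have : u ∈ Rad := hRad ▸ hu
      exact this.2 v hv
    let B' : LinearMap.BilinForm (ZMod r) M := B
    have hB' : B'.Nondegenerate := by
      refine ⟨fun u hu => hnd u hu, fun u hu => hnd u (fun v => ?_)⟩
      rw [hanti]
      have := hu v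
      change B v u = 0 at this
      rw [this, neg_zero]
    have hort := LinearMap.BilinForm.finrank_orthogonal hB' U
    have hle : U ≤ B'.orthogonal U := by
      intro u hu
      rw [LinearMap.BilinForm.mem_orthogonal_iff]
      intro v hv
      exact hiso0 v hv u hu
    have hfr := Submodule.finrank_mono hle
    have hfM : finrank (ZMod r) U ≤ finrank (ZMod r) M := Submodule.finrank_le U
    have h2 : 2 * finrank (ZMod r) U ≤ finrank (ZMod r) M := by omega
    have hcU : Nat.card U = r ^ finrank (ZMod r) U := by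
      rw [Module.natCard_eq_pow_finrank (K := ZMod r), Nat.card_zmod]
    have hcM : Nat.card M = r ^ finrank (ZMod r) M := by
      rw [Module.natCard_eq_pow_finrank (K := ZMod r), Nat.card_zmod]
    have hUsq : Nat.card U ^ 2 ≤ Nat.card M := by
      rw [hcU, hcM, ← pow_mul]
      exact Nat.pow_le_pow_right hr.out.pos (by omega)
    have hUm : Nat.card U ≤ m := (Nat.pow_le_pow_iff_left (by norm_num)).1 (hUsq.trans hm)
    have hlt : ℓ + 1 ≤ m := by omega
    exact ⟨by omega, fun h => by omega⟩

end Main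

end Cfsg.Agent.Lib.SolvLin
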