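import Mathlib
import Cfsg.Agent.Lib.SolvLin.FieldNormal
import Cfsg.Agent.Lib.SolvLin.CommForm
import Cfsg.Agent.Lib.SolvLin.SympPrime

/-!
# Sections of a transitive linear group above a maximal abelian normal subgroup
-/

set_option autoImplicit false

namespace Cfsg.Agent.Lib.SolvLin

open Module
open scoped commutatorElement

universe u v

/-- Independence of a projective family: the size of an index set is at most the dimension of the
endomorphism algebra. -/
theorem card_le_finrank_sq {K : Type*} {V : Type*} [Field K] [AddCommGroup V] [Module K V]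
    [Module.Finite K V] [Nontrivial V] {T : Type*} [Group T] {Q : Type*} [Finite Q]
    (τ : T →* (V →ₗ[K] V)) (rep : Q → T) (c : T → T →* K)
    (hc : ∀ h t, τ h * τ t = c t h • (τ t * τ h))
    (hinj : ∀ q q', c (rep q) = c (rep q') → q = q') :
    Nat.card Q ≤ finrank K V ^ 2 := by
  classical
  haveI := Fintype.ofFinite Q
  let f : Q → (V →ₗ[K] V) := fun q => τ (rep q)
  have hne : ∀ t, τ t ≠ 0 := by
    intro t h0
    have h1 : τ t⁻¹ * τ t = 1 := by rw [← map_mul, inv_mul_cancel, map_one]
    rw [h0, mul_zero] at h1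
    obtain ⟨v, hv⟩ := exists_ne (0 : V)
    have := LinearMap.congr_fun h1 v
    exact hv this.symm
  have hconj : ∀ h t, τ h * τ t * τ h⁻¹ = c t h • τ t := by
    intro h t
    rw [hc, smul_mul_assoc, mul_assoc, ← map_mul, mul_inv_cancel, map_one, mul_one]
  have hli : LinearIndependent K f := by
    rw [linearIndependent_iff']
    intro S g hS q hq
    by_contra hgq
    have h2 := (linearIndependent_monoidHom T K).comp (fun q => c (rep q)) (fun a b hab => hinj a b hab)
    rw [linearIndependent_iff'] at h2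
    have hall : ∀ φ : Module.Dual K (V →ₗ[K] V), φ (f q) = 0 := by
      intro φ
      have h3 := h2 S (fun q => g q * φ (f q)) ?_ q hq
      · exact (mul_eq_zero.1 h3).resolve_left hgq
      · funext h
        have h4 : τ h * (∑ i ∈ S, g i • f i) * τ h⁻¹ = 0 := by rw [hS, mul_zero, zero_mul]
        rw [Finset.mul_sum, Finset.sum_mul] at h4
        have h5 : ∀ i ∈ S, τ h * (g i • f i) * τ h⁻¹ = (g i * c (rep i) h) • f i := by
          intro i _
          rw [mul_smul_comm, smul_mul_assoc, hconj, smul_smul]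
        rw [Finset.sum_congr rfl h5] at h4
        have h6 := congrArg φ h4
        rw [map_sum, map_zero] at h6
        simp only [Finset.sum_apply, Pi.smul_apply, Function.comp, Pi.zero_apply, smul_eq_mul]
        rw [← h6]
        apply Finset.sum_congr rfl
        intro i _
        rw [map_smul, smul_eq_mul]
        ring
    exact hne _ ((Module.forall_dual_apply_eq_zero_iff K (f q)).1 hall)
  have h1 := hli.fintype_card_le_finrank
  rw [Module.finrank_linearMap] at h1
  rw [Nat.card_eq_fintype_card, sq]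
  exact h1

section Setup

variable {p : ℕ} [hp : Fact p.Prime] {V : Type v} [AddCommGroup V] [Module (ZMod p) V] [Finite V]
  [Nontrivial V] {G : Type u} [Group G] [Finite G]
  (ρ : G →* (V ≃ₗ[ZMod p] V)) (A : Subgroup G) [A.Normal]
  {K : Type v} [Field K] [Algebra (ZMod p) K] [Finite K]
  (ψ : K →ₐ[ZMod p] Module.End (ZMod p) V)
  [Module K V]

/-- The section bound: `|T : A| ≤ m²`. -/
theorem card_le_of_section (hρ : Function.Injective ρ) (hψ : Function.Injective ψ)
    (hr : ψ.range = Algebra.adjoin (ZMod p) (endOf ρ '' (A : Set G)))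
    (hact : ∀ (k : K) (v : V), k • v = ψ k v)
    (T : Subgroup G) (hAT : A ≤ T)
    (hTC : ∀ t ∈ T, ∀ a ∈ A, t * a = a * t) (hcomm : ∀ s ∈ T, ∀ t ∈ T, ⁅s, t⁆ ∈ A)
    (hZ : ∀ t ∈ T, (∀ s ∈ T, s * t = t * s) → t ∈ A) :
    Nat.card T ≤ finrank K V ^ 2 * Nat.card A := by
  classical
  obtain ⟨ι, hι⟩ := exists_iota ρ A ψ hψ hr
  haveI : Module.Finite K V := Module.Finite.of_finite
  have hlin : ∀ t ∈ T, ∀ (k : K) (v : V), ρ t (k • v) = k • ρ t v := by
    intro t ht k v
    rw [hact, hact]
    have := commute_of_centralizes ρ A ψ hr t (hTC t ht) k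
    exact LinearMap.congr_fun this v
  let τ : ↥T →* (V →ₗ[K] V) :=
    { toFun := fun t =>
        { toFun := fun v => ρ (t : G) v
          map_add' := fun a b => map_add _ a b
          map_smul' := fun k v => hlin t t.2 k v }
      map_one' := by
        apply LinearMap.ext
        intro v
        simp
      map_mul' := by
        intro s t
        apply LinearMap.ext
        intro v
        simp }
  have hτ : ∀ (t : ↥T) v, τ t v = ρ (t : G) v := fun t v => rfl
  have hcent : ∀ a ∈ A, ∀ t ∈ T, a * t = t * a := fun a ha t ht => (hTC t ht a ha).symm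
  let cf : ↥T → ↥T → K := fun s h => ((ι ⟨⁅(h : G), (s : G)⁆, hcomm _ h.2 _ s.2⟩ : Kˣ) : K)
  have hcf : ∀ s h, ψ (cf s h) = endOf ρ ⁅(h : G), (s : G)⁆ := fun s h => hι _
  have hcfmul : ∀ s h h', cf s (h * h') = cf s h * cf s h' := by
    intro s h h'
    apply hψ
    rw [map_mul, hcf, hcf, hcf, ← map_mul]
    congr 1
    exact comm_mul_left hAT hcent hcomm h.2 h'.2 s.2
  have hcfone : ∀ s, cf s 1 = 1 := by
    intro s
    apply hψ
    rw [hcf, map_one]
    simp [commutatorElement_def]
  let c : ↥T → ↥T →* K := fun s =>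
    { toFun := cf s
      map_one' := hcfone s
      map_mul' := hcfmul s }
  let Q := ↥T ⧸ A.subgroupOf T
  have h1 : Nat.card Q ≤ finrank K V ^ 2 := by
    refine card_le_finrank_sq τ (Quotient.out : Q → ↥T) c ?_ ?_
    · intro h t
      apply LinearMap.ext
      intro v
      change ρ (h : G) (ρ (t : G) v) = (cf t h) • ρ (t : G) (ρ (h : G) v)
      rw [hact, hcf]
      change ρ (h : G) (ρ (t : G) v) = ρ ⁅(h : G), (t : G)⁆ (ρ (t : G) (ρ (h : G) v))
      have h2 : (h : G) * t = ⁅(h : G), (t : G)⁆ * ((t : G) * h) := by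
        rw [commutatorElement_def]
        group
      have h3 := congrArg (fun g => ρ g v) h2
      simpa [map_mul] using h3
    · intro q q' hqq
      have h2 : ∀ h : ↥T, ⁅(h : G), ((Quotient.out q : ↥T) : G)⁆ = ⁅(h : G), ((Quotient.out q' : ↥T) : G)⁆ := by
        intro h
        have h3 := congrArg (fun f : ↥T →* K => f h) hqq
        have h4 : cf (Quotient.out q) h = cf (Quotient.out q') h := h3
        have h5 := congrArg ψ h4
        rw [hcf, hcf] at h5
        apply hρ
        apply LinearEquiv.ext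
        intro v
        exact LinearMap.congr_fun h5 v
      set s : ↥T := Quotient.out q with hs
      set s' : ↥T := Quotient.out q' with hs'
      have hmem : ((s'⁻¹ * s : ↥T) : G) ∈ A := by
        apply hZ _ (T.mul_mem (T.inv_mem s'.2) s.2)
        intro x hx
        have h3 := h2 ⟨x⁻¹, T.inv_mem hx⟩
        simp only [commutatorElement_def, inv_inv] at h3
        -- `x⁻¹ s x s⁻¹ = x⁻¹ s' x s'⁻¹`
        have h4 : (s : G) * x * (s : G)⁻¹ = (s' : G) * x * (s' : G)⁻¹ := by
          have := mul_left_cancel (a := x⁻¹) (by simpa [mul_assoc] using h3)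
          simpa [mul_assoc] using this
        have h5 : ((s' : G)⁻¹ * s) * x = x * ((s' : G)⁻¹ * s) := by
          have h6 : (s : G) * x = (s' : G) * x * (s' : G)⁻¹ * s := by
            rw [← h4]
            group
          calc ((s' : G)⁻¹ * s) * x = (s' : G)⁻¹ * ((s : G) * x) := by group
            _ = _ := by rw [h6]; group
        simpa using h5.symm
      have : (QuotientGroup.mk s : Q) = QuotientGroup.mk s' := by
        symm
        rw [QuotientGroup.eq, Subgroup.mem_subgroupOf]
        exact hmem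
      have hq : (QuotientGroup.mk s : Q) = q := Quotient.out_eq q
      have hq' : (QuotientGroup.mk s' : Q) = q' := Quotient.out_eq q'
      rw [← hq, ← hq', this]
  have h2 := Subgroup.card_eq_card_quotient_mul_card_subgroup (A.subgroupOf T)
  have h3 : Nat.card (A.subgroupOf T) = Nat.card A :=
    Nat.card_congr (Subgroup.subgroupOfEquivOfLe hAT).toEquiv
  rw [h3] at h2
  rw [h2]
  exact Nat.mul_le_mul_right _ h1

end Setup

/-- A section above `A`. -/
structure Good {G : Type u} [Group G] (A N : Subgroup G) (r : ℕ) : Prop where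
  normal : N.Normal
  lt : A < N
  cent : ∀ t ∈ N, ∀ a ∈ A, t * a = a * t
  prime : r.Prime
  comm : ∀ s ∈ N, ∀ t ∈ N, ⁅s, t⁆ ∈ A
  exp : ∀ t ∈ N, t ^ r ∈ A

section Groups

variable {G : Type u} [Group G] (A : Subgroup G) [A.Normal]

/-- The centre of a normal section lies in a maximal abelian normal subgroup. -/
theorem center_le_of_max
    (hmax : ∀ B : Subgroup G, B.Normal → (∀ x ∈ B, ∀ y ∈ B, x * y = y * x) → A ≤ B → B = A)
    (T : Subgroup G) [T.Normal] (hAT : A ≤ T) (hTC : ∀ t ∈ T, ∀ a ∈ A, t * a = a * t) :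
    ∀ t ∈ T, (∀ s ∈ T, s * t = t * s) → t ∈ A := by
  intro t ht hts
  let Z : Subgroup G := T ⊓ Subgroup.centralizer (T : Set G)
  have hZ : Z = A := by
    apply hmax Z inferInstance
    · intro x hx y hy
      have := (Subgroup.mem_centralizer_iff.1 hy.2) x hx.1
      exact this
    · intro a ha
      refine ⟨hAT ha, Subgroup.mem_centralizer_iff.2 ?_⟩
      intro s hs
      exact hTC s hs a ha
  rw [← hZ]
  exact ⟨ht, Subgroup.mem_centralizer_iff.2 hts⟩

omit [A.Normal] in
theorem Good.nonabelian [A.Normal]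
    (hmax : ∀ B : Subgroup G, B.Normal → (∀ x ∈ B, ∀ y ∈ B, x * y = y * x) → A ≤ B → B = A)
    {N : Subgroup G} {r : ℕ} (h : Good A N r) : ∃ s ∈ N, ∃ t ∈ N, s * t ≠ t * s := by
  by_contra hcon
  push Not at hcon
  have := hmax N h.normal hcon h.lt.le
  exact h.lt.ne this.symm

/-- A closure of a set commuting modulo `A` has commutators in `A`. -/
theorem closure_comm_mod (S : Set G) (hS : ∀ x ∈ S, ∀ y ∈ S, ⁅x, y⁆ ∈ A) :
    ∀ x ∈ Subgroup.closure S, ∀ y ∈ Subgroup.closure S, ⁅x, y⁆ ∈ A := by
  intro x hx y hy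
  let q : G →* G ⧸ A := QuotientGroup.mk' A
  have hc : ∀ a ∈ q '' S, ∀ b ∈ q '' S, a * b = b * a := by
    rintro _ ⟨a, ha, rfl⟩ _ ⟨b, hb, rfl⟩
    have h1 : q ⁅a, b⁆ = 1 := (QuotientGroup.eq_one_iff _).2 (hS a ha b hb)
    rw [map_commutatorElement] at h1
    exact commutatorElement_eq_one_iff_mul_comm.1 h1
  have hcm := Subgroup.isMulCommutative_closure hc
  have hx' : q x ∈ Subgroup.closure (q '' S) := by
    rw [← MonoidHom.map_closure]
    exact ⟨x, hx, rfl⟩
  have hy' : q y ∈ Subgroup.closure (q '' S) := by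
    rw [← MonoidHom.map_closure]
    exact ⟨y, hy, rfl⟩
  have h2 := congrArg Subtype.val (hcm.is_comm.comm (⟨q x, hx'⟩ : Subgroup.closure (q '' S)) ⟨q y, hy'⟩)
  have h3 : q ⁅x, y⁆ = 1 := by
    rw [map_commutatorElement]
    exact commutatorElement_eq_one_iff_mul_comm.2 h2
  exact (QuotientGroup.eq_one_iff _).1 h3

/-- An element of prime order whose commutators with `N` lie in `A` centralizes `N`. -/
theorem centralizes_of_comm_mem {N : Subgroup G} {y : G} {ℓ : ℕ} [Finite G]
    (hyA : ∀ a ∈ A, y * a = a * y) (hN : ∀ t ∈ N, ∀ a ∈ A, t * a = a * t)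
    (hy : ∀ t ∈ N, ⁅y, t⁆ ∈ A) (hyℓ : y ^ ℓ = 1) (hcop : Nat.Coprime ℓ (Nat.card A)) :
    ∀ t ∈ N, y * t = t * y := by
  intro t ht
  set a := ⁅y, t⁆ with ha
  have haA : a ∈ A := hy t ht
  have h1 : y * t = a * t * y := by
    rw [ha, commutatorElement_def]
    group
  have h2 : ∀ k : ℕ, y ^ k * t = a ^ k * t * y ^ k := by
    intro k
    induction k with
    | zero => simp
    | succ k ih =>
      have hcomm : y * a ^ k = a ^ k * y := by
        have : Commute y (a ^ k) := (show Commute y a from hyA a haA).pow_right k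
        exact this
      calc y ^ (k + 1) * t = y * (y ^ k * t) := by rw [pow_succ']; group
        _ = y * (a ^ k * t * y ^ k) := by rw [ih]
        _ = (y * a ^ k) * t * y ^ k := by group
        _ = a ^ k * (y * t) * y ^ k := by rw [hcomm]; group
        _ = a ^ k * (a * t * y) * y ^ k := by rw [h1]
        _ = a ^ (k + 1) * t * y ^ (k + 1) := by rw [pow_succ, pow_succ']; group
  have h3 := h2 ℓ
  rw [hyℓ, one_mul, mul_one] at h3
  have h4 : a ^ ℓ = 1 := by
    have : a ^ ℓ * t = 1 * t := by rw [← h3, one_mul]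
    exact mul_right_cancel this
  have h5 : orderOf (⟨a, haA⟩ : A) ∣ ℓ := orderOf_dvd_of_pow_eq_one (Subtype.ext h4)
  have h6 : orderOf (⟨a, haA⟩ : A) ∣ Nat.card A := orderOf_dvd_natCard _
  have h7 : orderOf (⟨a, haA⟩ : A) = 1 := Nat.eq_one_of_dvd_coprimes hcop h5 h6
  have h8 : (⟨a, haA⟩ : A) = 1 := orderOf_eq_one_iff.1 h7
  have h9 : a = 1 := congrArg Subtype.val h8
  exact commutatorElement_eq_one_iff_mul_comm.1 h9

/-- An element of prime order outside `A` moves a section. -/
theorem exists_good_moved [Finite G] [Group.IsSolvable G]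
    (hAc : ∀ a ∈ A, ∀ b ∈ A, a * b = b * a)
    (hmax : ∀ B : Subgroup G, B.Normal → (∀ x ∈ B, ∀ y ∈ B, x * y = y * x) → A ≤ B → B = A)
    {x : G} (hxA : ∀ a ∈ A, x * a = a * x) (hxnot : x ∉ A) :
    ∃ (N : Subgroup G) (r : ℕ), Good A N r ∧ ¬ ∀ t ∈ N, x * t = t * x := by
  classical
  let C : Subgroup G := Subgroup.centralizer (A : Set G)
  have hxC : x ∈ C := Subgroup.mem_centralizer_iff.2 fun a ha => (hxA a ha).symm
  have hAC : A ≤ C := fun a ha => Subgroup.mem_centralizer_iff.2 fun b hb => hAc b hb a ha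
  let D : Subgroup G := Subgroup.normalClosure {x} ⊔ A
  haveI hDn : D.Normal := inferInstance
  have hxD : x ∈ D := (le_sup_left : _ ≤ D) (Subgroup.subset_normalClosure rfl)
  have hDC : D ≤ C := sup_le (Subgroup.normalClosure_le_normal (by simpa using hxC)) hAC
  have hAD : A < D := lt_of_le_of_ne le_sup_right (fun h => hxnot (h ▸ hxD))
  have hcent : ∀ a ∈ A, ∀ t ∈ D, a * t = t * a := fun a ha t ht =>
    Subgroup.mem_centralizer_iff.1 (hDC ht) a ha
  obtain ⟨N, r, hNn, hAN, hND, hr, hcomm, hexp⟩ := exists_elementary_section A D hAD hcent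
  have hG : Good A N r := ⟨hNn, hAN, fun t ht a ha => (hcent a ha t (hND ht)).symm, hr, hcomm, hexp⟩
  refine ⟨N, r, hG, fun hall => ?_⟩
  haveI := hNn
  have hD2 : D ≤ Subgroup.centralizer (N : Set G) := by
    apply sup_le
    · apply Subgroup.normalClosure_le_normal
      simp only [Set.singleton_subset_iff]
      exact Subgroup.mem_centralizer_iff.2 fun t ht => (hall t ht).symm
    · intro a ha
      exact Subgroup.mem_centralizer_iff.2 fun t ht => (hcent a ha t (hND ht)).symm.symm ▸ hG.cent t ht a ha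
  obtain ⟨s, hs, t, ht, hne⟩ := hG.nonabelian A hmax
  exact hne (Subgroup.mem_centralizer_iff.1 (hD2 (hND ht)) s hs)

end Groups

/-- A free action: the group order divides the size of the set. -/
theorem card_dvd_of_free {P X : Type*} [Group P] [Finite P] [Finite X] [MulAction P X]
    (h : ∀ (g : P) (x : X), g • x = x → g = 1) : Nat.card P ∣ Nat.card X := by
  classical
  haveI := Fintype.ofFinite P
  haveI := Fintype.ofFinite X
  haveI : Fintype (Quotient (MulAction.orbitRel P X)) := Fintype.ofFinite _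
  have h1 := MulAction.sum_card_fixedBy_eq_card_orbits_mul_card_group P X
  have h2 : ∑ a : P, Fintype.card (MulAction.fixedBy X a) = Fintype.card X := by
    rw [Finset.sum_eq_single (1 : P)]
    · apply Fintype.card_congr
      exact Equiv.subtypeUnivEquiv (fun x => by simp)
    · intro g _ hg
      rw [Fintype.card_eq_zero_iff]
      exact ⟨fun x => hg (h g x x.2)⟩
    · intro hn
      exact absurd (Finset.mem_univ _) hn
  rw [h2] at h1
  rw [Nat.card_eq_fintype_card, Nat.card_eq_fintype_card, h1]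
  exact dvd_mul_left _ _

/-- The data of the commutator form on a section. -/
structure FormData {G : Type u} [Group G] (A N : Subgroup G) (r : ℕ) (M : Type u) [AddCommGroup M]
    [Module (ZMod r) M] where
  π : ↥N → M
  B : M →ₗ[ZMod r] M →ₗ[ZMod r] ZMod r
  act : G →* (M ≃ₗ[ZMod r] M)
  surj : Function.Surjective π
  add : ∀ s t, π (s * t) = π s + π t
  zero : ∀ s, π s = 0 ↔ (s : G) ∈ A
  bzero : ∀ s t : ↥N, B (π s) (π t) = 0 ↔ (s : G) * t = t * s
  alt : ∀ u, B u u = 0
  nd : ∀ u, (∀ v, B u v = 0) → u = 0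
  act_π : ∀ (g : G) (s s' : ↥N), (s' : G) = g * s * g⁻¹ → act g (π s) = π s'
  iso : ∀ g : G, (∀ a ∈ A, g * a = a * g) → ∀ u v, B (act g u) (act g v) = B u v
  card : Nat.card M * Nat.card A = Nat.card N
  dvd : r ∣ Nat.card A

section Setup2

variable {p : ℕ} [hp : Fact p.Prime] {V : Type v} [AddCommGroup V] [Module (ZMod p) V] [Finite V]
  [Nontrivial V] {G : Type u} [Group G] [Finite G]
  (ρ : G →* (V ≃ₗ[ZMod p] V)) (A : Subgroup G) [A.Normal]
  {K : Type v} [Field K] [Algebra (ZMod p) K] [Finite K]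
  (ψ : K →ₐ[ZMod p] Module.End (ZMod p) V)
  [Module K V]

include ρ ψ in
/-- `A` is cyclic, of order dividing `|K| - 1`. -/
theorem card_A_dvd (hρ : Function.Injective ρ) (hψ : Function.Injective ψ)
    (hr : ψ.range = Algebra.adjoin (ZMod p) (endOf ρ '' (A : Set G))) :
    IsCyclic A ∧ Nat.card A ∣ Nat.card K - 1 := by
  classical
  obtain ⟨ι, hι⟩ := exists_iota ρ A ψ hψ hr
  have hinj : Function.Injective ι := by
    intro a b hab
    have h1 : endOf ρ (a : G) = endOf ρ (b : G) := by
      rw [← hι, ← hι, hab]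
    apply Subtype.ext
    apply hρ
    apply LinearEquiv.ext
    intro v
    exact LinearMap.congr_fun h1 v
  constructor
  · exact isCyclic_of_subgroup_isDomain ((Units.coeHom K).comp ι)
      (fun a b hab => hinj (Units.ext hab))
  · have h1 := Subgroup.card_dvd_of_injective ι hinj
    haveI := Fintype.ofFinite K
    rw [Nat.card_eq_fintype_card (α := Kˣ), Fintype.card_units] at h1
    rw [Nat.card_eq_fintype_card (α := K)]
    exact h1

/-- The form on a good section. -/
theorem exists_formData [Group.IsSolvable G] (hρ : Function.Injective ρ) (hψ : Function.Injective ψ)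
    (hr : ψ.range = Algebra.adjoin (ZMod p) (endOf ρ '' (A : Set G)))
    (hact : ∀ (k : K) (v : V), k • v = ψ k v)
    (hmax : ∀ B : Subgroup G, B.Normal → (∀ x ∈ B, ∀ y ∈ B, x * y = y * x) → A ≤ B → B = A)
    {N : Subgroup G} {r : ℕ} [Fact r.Prime] (h : Good A N r) :
    ∃ (M : Type u) (_ : AddCommGroup M) (_ : Module (ZMod r) M) (_ : Finite M)
      (_ : FormData A N r M), Nat.card M ≤ finrank K V ^ 2 := by
  classical
  haveI := h.normal
  have hcyc := (card_A_dvd ρ A ψ hρ hψ hr).1
  have hcent : ∀ a ∈ A, ∀ t ∈ N, a * t = t * a := fun a ha t ht => (h.cent t ht a ha).symm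
  have hZ := center_le_of_max A hmax N h.lt.le h.cent
  obtain ⟨M, i1, i2, i3, π, B, act, h1, h2, h3, h4, h5, h6, h7, h8, h9, h10⟩ :=
    exists_form (r := r) A N h.lt.le hcent h.comm h.exp hZ hcyc (h.nonabelian A hmax)
  refine ⟨M, i1, i2, i3, ⟨π, B, act, h1, h2, h3, h4, h5, h6, h7, h8, h9, h10⟩, ?_⟩
  have hb := card_le_of_section ρ A ψ hρ hψ hr hact N h.lt.le h.cent h.comm hZ
  rw [← h9] at hb
  exact Nat.le_of_mul_le_mul_right hb Nat.card_pos

/-- When `N` is as large as possible, its centralizer is `A`. -/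
theorem centralizer_eq_of_card [Group.IsSolvable G] (hρ : Function.Injective ρ) (hψ : Function.Injective ψ)
    (hr : ψ.range = Algebra.adjoin (ZMod p) (endOf ρ '' (A : Set G)))
    (hact : ∀ (k : K) (v : V), k • v = ψ k v)
    (hAc : ∀ a ∈ A, ∀ b ∈ A, a * b = b * a)
    (hmax : ∀ B : Subgroup G, B.Normal → (∀ x ∈ B, ∀ y ∈ B, x * y = y * x) → A ≤ B → B = A)
    {N : Subgroup G} {r : ℕ} (h : Good A N r) (hcard : finrank K V ^ 2 * Nat.card A ≤ Nat.card N)
    {y : G} (hy : ∀ t ∈ N, y * t = t * y) : y ∈ A := by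
  classical
  haveI := h.normal
  by_contra hyA
  let D : Subgroup G := Subgroup.centralizer (N : Set G)
  haveI : D.Normal := inferInstance
  have hyD : y ∈ D := Subgroup.mem_centralizer_iff.2 fun t ht => (hy t ht).symm
  have hAD : A ≤ D := fun a ha => Subgroup.mem_centralizer_iff.2 fun t ht => h.cent t ht a ha
  have hlt : A < D := lt_of_le_of_ne hAD (fun he => hyA (he ▸ hyD))
  have hDcent : ∀ a ∈ A, ∀ t ∈ D, a * t = t * a := fun a ha t ht =>
    Subgroup.mem_centralizer_iff.1 ht a (h.lt.le ha)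
  obtain ⟨N₂, r₂, hN₂n, hAN₂, hN₂D, -, hc₂, -⟩ := exists_elementary_section A D hlt hDcent
  haveI := hN₂n
  let T : Subgroup G := N ⊔ N₂
  have hTcl : T = Subgroup.closure ((N : Set G) ∪ N₂) := by
    rw [Subgroup.closure_union, Subgroup.closure_eq, Subgroup.closure_eq]
  have hcomm : ∀ s ∈ T, ∀ t ∈ T, ⁅s, t⁆ ∈ A := by
    rw [hTcl]
    apply closure_comm_mod
    have hND : ∀ s ∈ N, ∀ t ∈ N₂, s * t = t * s := fun s hs t ht =>
      Subgroup.mem_centralizer_iff.1 (hN₂D ht) s hs
    rintro x (hx | hx) y (hy | hy)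
    · exact h.comm x hx y hy
    · rw [commutatorElement_eq_one_iff_mul_comm.2 (hND x hx y hy)]
      exact A.one_mem
    · rw [commutatorElement_eq_one_iff_mul_comm.2 (hND y hy x hx).symm]
      exact A.one_mem
    · exact hc₂ x hx y hy
  have hTC : ∀ t ∈ T, ∀ a ∈ A, t * a = a * t := by
    have hle : T ≤ Subgroup.centralizer (A : Set G) := by
      apply sup_le
      · intro t ht
        exact Subgroup.mem_centralizer_iff.2 fun a ha => (h.cent t ht a ha).symm
      · intro t ht
        exact Subgroup.mem_centralizer_iff.2 fun a ha => hDcent a ha t (hN₂D ht)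
    intro t ht a ha
    exact (Subgroup.mem_centralizer_iff.1 (hle ht) a ha).symm
  have hAT : A ≤ T := h.lt.le.trans le_sup_left
  have hZ := center_le_of_max A hmax T hAT hTC
  have hb := card_le_of_section ρ A ψ hρ hψ hr hact T hAT hTC hcomm hZ
  have hTN : T = N := (Subgroup.eq_of_le_of_card_ge (le_sup_left : N ≤ T) (hb.trans hcard)).symm
  have hN₂N : N₂ ≤ N := by
    rw [← hTN]
    exact le_sup_right
  obtain ⟨t, ht, htA⟩ := SetLike.exists_of_lt hAN₂
  apply htA
  apply center_le_of_max A hmax N h.lt.le h.cent t (hN₂N ht)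
  intro s hs
  exact Subgroup.mem_centralizer_iff.1 (hN₂D ht) s hs

/-- When `N` is as large as possible, an element centralizing `A` and `N / A` lies in `N`. -/
theorem mem_of_comm_mem [Group.IsSolvable G] (hρ : Function.Injective ρ) (hψ : Function.Injective ψ)
    (hr : ψ.range = Algebra.adjoin (ZMod p) (endOf ρ '' (A : Set G)))
    (hact : ∀ (k : K) (v : V), k • v = ψ k v)
    (hAc : ∀ a ∈ A, ∀ b ∈ A, a * b = b * a)
    (hmax : ∀ B : Subgroup G, B.Normal → (∀ x ∈ B, ∀ y ∈ B, x * y = y * x) → A ≤ B → B = A)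
    {N : Subgroup G} {r : ℕ} (h : Good A N r) (hcard : finrank K V ^ 2 * Nat.card A ≤ Nat.card N)
    {c : G} (hcA : ∀ a ∈ A, c * a = a * c) (hc : ∀ t ∈ N, ⁅c, t⁆ ∈ A) : c ∈ N := by
  classical
  let T : Subgroup G := N ⊔ Subgroup.closure {c}
  have hTcl : T = Subgroup.closure ((N : Set G) ∪ {c}) := by
    rw [Subgroup.closure_union, Subgroup.closure_eq]
  have hcomm : ∀ s ∈ T, ∀ t ∈ T, ⁅s, t⁆ ∈ A := by
    rw [hTcl]
    apply closure_comm_mod
    rintro x (hx | hx) y (hy | hy)
    · exact h.comm x hx y hy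
    · rw [Set.mem_singleton_iff.1 hy, ← commutatorElement_inv]
      exact A.inv_mem (hc x hx)
    · rw [Set.mem_singleton_iff.1 hx]
      exact hc y hy
    · rw [Set.mem_singleton_iff.1 hx, Set.mem_singleton_iff.1 hy, commutatorElement_self]
      exact A.one_mem
  have hTC : ∀ t ∈ T, ∀ a ∈ A, t * a = a * t := by
    have hle : T ≤ Subgroup.centralizer (A : Set G) := by
      apply sup_le
      · intro t ht
        exact Subgroup.mem_centralizer_iff.2 fun a ha => (h.cent t ht a ha).symm
      · rw [Subgroup.closure_le]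
        intro t ht
        rw [Set.mem_singleton_iff.1 ht]
        exact Subgroup.mem_centralizer_iff.2 fun a ha => (hcA a ha).symm
    intro t ht a ha
    exact (Subgroup.mem_centralizer_iff.1 (hle ht) a ha).symm
  have hAT : A ≤ T := h.lt.le.trans le_sup_left
  have hZ : ∀ t ∈ T, (∀ s ∈ T, s * t = t * s) → t ∈ A := by
    intro t _ hts
    exact centralizer_eq_of_card ρ A ψ hρ hψ hr hact hAc hmax h hcard
      (fun s hs => (hts s (le_sup_left (a := N) hs)).symm)
  have hb := card_le_of_section ρ A ψ hρ hψ hr hact T hAT hTC hcomm hZ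
  have hTN : T = N := (Subgroup.eq_of_le_of_card_ge (le_sup_left : N ≤ T) (hb.trans hcard)).symm
  have : c ∈ T := le_sup_right (a := N) (Subgroup.subset_closure rfl)
  rwa [hTN] at this

end Setup2

end Cfsg.Agent.Lib.SolvLin
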