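import Mathlib
import Cfsg.Agent.Lib.Classical.Spectra.Ppd
import Cfsg.Agent.Lib.PGroup.PpdTwo
import Cfsg.Agent.Lib.Zsig.PrimCore

/-!
# Arithmetic of primitive primes for transitive linear groups
-/

set_option autoImplicit false

namespace Cfsg.Agent.Lib.SolvLin

/-- **Primitive primes for `p ^ n - 1`.** -/
theorem exists_prim {p n : ℕ} (hp : p.Prime) (hn : 3 ≤ n) (hex : ¬ (p = 2 ∧ n = 6)) :
    ∃ ℓ, ℓ.Prime ∧ IsPrimitiveRoot (p : ZMod ℓ) n := by
  rcases hp.eq_two_or_odd' with rfl | hodd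
  · rcases Nat.even_or_odd n with ⟨k, hk⟩ | hnodd
    · have hk2 : n = 2 * k := by omega
      subst hk2
      exact Cfsg.Agent.Lib.PGroup.PpdTwo.exists_ord hp (by omega) (fun h => hex ⟨rfl, by omega⟩)
    · rcases eq_or_ne n 3 with rfl | hn3
      · refine ⟨7, by norm_num, ?_⟩
        haveI : Fact (Nat.Prime 7) := ⟨by norm_num⟩
        refine IsPrimitiveRoot.mk_of_lt _ (by norm_num) (by decide) ?_
        intro l hl0 hl3
        interval_cases l <;> decide
      · have hmem : (2, n) ∉ Cfsg.Agent.Lib.Zsig.PrimCore.L13 := by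
          intro hmem
          obtain ⟨c, hc⟩ := hnodd
          simp only [Cfsg.Agent.Lib.Zsig.PrimCore.L13, List.mem_cons, Prod.mk.injEq,
            List.not_mem_nil, or_false] at hmem
          omega
        obtain ⟨m, ⟨hm1, hm2⟩, hle⟩ := Cfsg.Agent.Lib.Zsig.PrimCore.core (q := 2) (e := n) le_rfl hn hmem
        have hm2' : m ≠ 1 := by omega
        refine ⟨m.minFac, Nat.minFac_prime hm2', ?_⟩
        haveI : Fact (m.minFac.Prime) := ⟨Nat.minFac_prime hm2'⟩
        have hdvd : m.minFac ∣ m := Nat.minFac_dvd m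
        refine IsPrimitiveRoot.mk_of_lt _ (by omega) ?_ ?_
        · have h1 : m.minFac ∣ 2 ^ n - 1 := hdvd.trans hm1
          have h2 : ((2 ^ n - 1 : ℕ) : ZMod m.minFac) = 0 := (ZMod.natCast_eq_zero_iff _ _).2 h1
          have h3 : 1 ≤ 2 ^ n := Nat.one_le_two_pow
          rw [Nat.cast_sub h3] at h2
          push_cast at h2
          exact sub_eq_zero.1 h2
        · intro l hl0 hln h
          have h3 : 1 ≤ 2 ^ l := Nat.one_le_two_pow
          have h2 : ((2 ^ l - 1 : ℕ) : ZMod m.minFac) = 0 := by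
            rw [Nat.cast_sub h3]
            push_cast
            exact sub_eq_zero.2 h
          have h4 : m.minFac ∣ 2 ^ l - 1 := (ZMod.natCast_eq_zero_iff _ _).1 h2
          have h5 := hm2 l hl0 hln
          exact (Nat.minFac_prime hm2').one_lt.ne' (Nat.eq_one_of_dvd_coprimes h5 hdvd h4)
  · have h3 : 3 ≤ p := by
      have := hp.two_le
      rcases hodd with ⟨c, hc⟩
      omega
    exact Cfsg.Agent.Lib.Classical.Spectra.Ppd.exists_ppd (by omega) h3

/-- The final arithmetic: the power of two case. -/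
theorem arith_final {p k : ℕ} (hp : p.Prime) (hodd : p ≠ 2) (i : ℕ) (hk : k = 2 ^ (i + 1))
    (hprim : ∀ q : ℕ, q.Prime → IsPrimitiveRoot (p : ZMod q) (2 * k) → q = 2 * k + 1)
    (hsq : ¬ (2 * k + 1) ^ 2 ∣ p ^ (2 * k) - 1) : p = 3 ∧ k = 2 := by
  have hp3 : 3 ≤ p := by
    have := hp.two_le
    omega
  have hpodd : Odd p := hp.odd_of_ne_two hodd
  set a := p ^ k with ha
  have hkpos : 0 < k := by rw [hk]; positivity
  have hk2 : 2 ≤ k := by
    rw [hk, pow_succ]
    have : 0 < 2 ^ i := by positivity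
    omega
  have hbig : 3 ^ k ≤ a := Nat.pow_le_pow_left hp3 k
  have hbig2 : 9 ≤ a := by
    calc 9 = 3 ^ 2 := by norm_num
      _ ≤ 3 ^ k := Nat.pow_le_pow_right (by norm_num) hk2
      _ ≤ a := hbig
  -- `a ≡ 1 mod 4`
  have hmod : a % 4 = 1 := by
    have h1 : a = (p ^ (2 ^ i)) ^ 2 := by
      rw [ha, hk, ← pow_mul, pow_succ]
    have h2 : Odd (p ^ (2 ^ i)) := hpodd.pow
    obtain ⟨c, hc⟩ := h2
    rw [h1, hc]
    have : (2 * c + 1) ^ 2 = 4 * (c ^ 2 + c) + 1 := by ring
    rw [this]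
    omega
  obtain ⟨t, ht⟩ : ∃ t, a + 1 = 2 * t := ⟨(a + 1) / 2, by omega⟩
  have htodd : Odd t := by
    rw [Nat.odd_iff]
    omega
  have ht1 : t ≠ 1 := by omega
  have ht0 : t ≠ 0 := by omega
  -- every prime divisor of `t` is `2 k + 1`
  have hq : ∀ {q : ℕ}, q.Prime → q ∣ t → q = 2 * k + 1 := by
    intro q hq hqt
    haveI : Fact q.Prime := ⟨hq⟩
    have hq2 : q ≠ 2 := by
      rintro rfl
      exact absurd hqt (by rw [← even_iff_two_dvd, Nat.not_even_iff_odd]; exact htodd)
    have h1 : ((a + 1 : ℕ) : ZMod q) = 0 :=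
      (ZMod.natCast_eq_zero_iff _ _).2 (ht ▸ hqt.mul_left 2)
    have h2 : (p : ZMod q) ^ k = -1 := by
      rw [ha] at h1
      push_cast at h1
      exact eq_neg_of_add_eq_zero_left h1
    apply hprim q hq
    have h3 : (p : ZMod q) ^ 2 ^ (i + 2) = 1 := by
      have : 2 ^ (i + 2) = k * 2 := by rw [hk, pow_succ]
      rw [this, pow_mul, h2]
      norm_num
    have h4 : ¬ (p : ZMod q) ^ 2 ^ (i + 1) = 1 := by
      rw [← hk, h2]
      intro h
      have h5 : (2 : ZMod q) = 0 := by
        have : (1 : ZMod q) + 1 = 0 := by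
          nth_rw 1 [← h]
          ring
        rw [← this]
        norm_num
      have h6 : ((2 : ℕ) : ZMod q) = 0 := by exact_mod_cast h5
      rw [ZMod.natCast_eq_zero_iff] at h6
      exact hq2 ((Nat.prime_dvd_prime_iff_eq hq Nat.prime_two).1 h6)
    have h5 := orderOf_eq_prime_pow (p := 2) h4 h3
    have h6 := IsPrimitiveRoot.orderOf (p : ZMod q)
    rw [h5] at h6
    have : 2 * k = 2 ^ (i + 1 + 1) := by rw [hk, pow_succ 2 (i + 1)]; ring
    rw [this]
    exact h6
  have hmf := hq (Nat.minFac_prime ht1) (Nat.minFac_dvd t)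
  have hℓp : (2 * k + 1).Prime := hmf ▸ Nat.minFac_prime ht1
  have hpow := Nat.eq_prime_pow_of_unique_prime_dvd ht0 (p := 2 * k + 1) (fun {d} hd hdt => hq hd hdt)
  set b := t.primeFactorsList.length with hb
  have hb1 : b = 1 := by
    have hb0 : b ≠ 0 := by
      intro h0
      rw [h0, pow_zero] at hpow
      exact ht1 hpow
    by_contra hne
    have hb2 : 2 ≤ b := by omega
    apply hsq
    have h1 : (2 * k + 1) ^ 2 ∣ t := by
      rw [hpow]
      exact pow_dvd_pow _ hb2
    have h2 : t ∣ a + 1 := ⟨2, by rw [ht]; ring⟩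
    have h3 : a + 1 ∣ p ^ (2 * k) - 1 := by
      have : p ^ (2 * k) = a * a := by rw [ha, two_mul, pow_add]
      rw [this]
      have h4 : ∀ c : ℕ, 1 ≤ c → c * c - 1 = (c + 1) * (c - 1) := by
        intro c hc
        have := Nat.mul_self_sub_mul_self_eq c 1
        simpa using this
      rw [h4 a (by omega)]
      exact dvd_mul_right _ _
    exact h1.trans (h2.trans h3)
  rw [hb1, pow_one] at hpow
  have hval : a = 4 * k + 1 := by omega
  have hk3 : k ≤ 2 := by
    by_contra hcon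
    have h3k : 3 ≤ k := by omega
    have : ∀ j, 3 ≤ j → 4 * j + 1 < 3 ^ j := by
      intro j hj
      induction j, hj using Nat.le_induction with
      | base => norm_num
      | succ j hj ih =>
        rw [pow_succ]
        omega
    have := this k h3k
    omega
  have hk4 : k = 2 := by omega
  subst hk4
  have h9 : p ^ 2 = 9 := by
    rw [ha] at hval
    omega
  refine ⟨?_, rfl⟩
  nlinarith

end Cfsg.Agent.Lib.SolvLin
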