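import Mathlib
import Cfsg.Agent.Lib.SolvLin.Core
import Cfsg.Agent.Lib.SolvLin.PrimArith

/-!
# Huppert's theorem: the structure of solvable transitive linear groups
-/

set_option autoImplicit false

namespace Cfsg.Agent.Lib.SolvLin

open Module
open scoped commutatorElement

universe u v

/-- A transitive group has order divisible by the number of nonzero vectors. -/
theorem card_sub_one_dvd {p : ℕ} [Fact p.Prime] {V : Type v} [AddCommGroup V] [Module (ZMod p) V]
    [Finite V] [Nontrivial V] {G : Type u} [Group G] [Finite G]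
    (ρ : G →* (V ≃ₗ[ZMod p] V)) (htrans : ∀ v w : V, v ≠ 0 → w ≠ 0 → ∃ g : G, ρ g v = w) :
    Nat.card V - 1 ∣ Nat.card G := by
  classical
  haveI := Fintype.ofFinite V
  obtain ⟨v₀, hv₀⟩ := exists_ne (0 : V)
  -- the orbit map
  letI act : MulAction G {v : V // v ≠ 0} :=
    { smul := fun g v => ⟨ρ g v.1, fun h => v.2 ((ρ g).injective (by rw [h, map_zero]))⟩
      one_smul := fun v => Subtype.ext (by change ρ 1 v.1 = v.1; simp)
      mul_smul := fun g h v => Subtype.ext (by change ρ (g * h) v.1 = ρ g (ρ h v.1); simp) }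
  have hor : MulAction.orbit G (⟨v₀, hv₀⟩ : {v : V // v ≠ 0}) = Set.univ := by
    ext w
    simp only [Set.mem_univ, iff_true]
    obtain ⟨g, hg⟩ := htrans v₀ w.1 hv₀ w.2
    exact ⟨g, Subtype.ext hg⟩
  have h1 := MulAction.index_stabilizer G (⟨v₀, hv₀⟩ : {v : V // v ≠ 0})
  rw [hor, Set.ncard_univ] at h1
  have h2 : Nat.card {v : V // v ≠ 0} = Nat.card V - 1 := by
    rw [Nat.card_eq_fintype_card, Nat.card_eq_fintype_card, Fintype.card_subtype_compl,
      Fintype.card_subtype_eq]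
  rw [← h2, ← h1]
  exact Subgroup.index_dvd_card _

theorem card_eq_pow_K {p : ℕ} [Fact p.Prime] {K : Type v} [Field K] [Algebra (ZMod p) K] [Finite K] :
    Nat.card K = p ^ finrank (ZMod p) K := by
  rw [Module.natCard_eq_pow_finrank (K := ZMod p), Nat.card_zmod]

section Setup

variable {p : ℕ} [hp : Fact p.Prime] {V : Type v} [AddCommGroup V] [Module (ZMod p) V] [Finite V]
  [Nontrivial V] {G : Type u} [Group G] [Finite G]
  {ρ : G →* (V ≃ₗ[ZMod p] V)} {A : Subgroup G} [A.Normal]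
  {K : Type v} [Field K] [Algebra (ZMod p) K] [Finite K]
  {ψ : K →ₐ[ZMod p] Module.End (ZMod p) V}
  [Module K V]

variable (ρ A ψ) in
/-- The setting of the structure theorem. -/
structure Setup : Prop where
  inj : Function.Injective ρ
  trans : ∀ v w : V, v ≠ 0 → w ≠ 0 → ∃ g : G, ρ g v = w
  ψinj : Function.Injective ψ
  range : ψ.range = Algebra.adjoin (ZMod p) (endOf ρ '' (A : Set G))
  act : ∀ (k : K) (v : V), k • v = ψ k v
  comm : ∀ a ∈ A, ∀ b ∈ A, a * b = b * a
  max : ∀ B : Subgroup G, B.Normal → (∀ x ∈ B, ∀ y ∈ B, x * y = y * x) → A ≤ B → B = A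

theorem Setup.card_V (_ : Setup ρ A ψ) :
    Nat.card V = p ^ (finrank (ZMod p) K * finrank K V) := by
  rw [Module.natCard_eq_pow_finrank (K := K) (V := V), card_eq_pow_K (p := p), pow_mul]

theorem Setup.finrank_pos (_ : Setup ρ A ψ) : 0 < finrank (ZMod p) K := by
  haveI : Module.Finite (ZMod p) K := Module.Finite.of_finite
  exact Module.finrank_pos

theorem Setup.finrank_V_pos (_ : Setup ρ A ψ) : 0 < finrank K V := by
  haveI : Module.Finite K V := Module.Finite.of_finite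
  exact Module.finrank_pos

theorem Setup.card_A (S : Setup ρ A ψ) : IsCyclic A ∧ Nat.card A ∣ p ^ finrank (ZMod p) K - 1 := by
  rw [← card_eq_pow_K (K := K)]
  exact card_A_dvd ρ A ψ S.inj S.ψinj S.range

/-- An element acting trivially on the field centralizes `A`. -/
theorem Setup.centralizes_of_sigma (S : Setup ρ A ψ) (σ : G →* (K ≃ₐ[ZMod p] K))
    (hσ : ∀ g k, ψ (σ g k) = endOf ρ g * ψ k * endOf ρ g⁻¹) {x : G} (hx : σ x = 1) :
    ∀ a ∈ A, x * a = a * x := by
  intro a ha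
  obtain ⟨k, hk⟩ := exists_of_mem ρ A ψ S.range a ha
  have h1 := hσ x k
  rw [hx, AlgEquiv.one_apply, hk, ← map_mul, ← map_mul] at h1
  have h2 : a = x * a * x⁻¹ := by
    apply S.inj
    apply LinearEquiv.ext
    intro v
    exact LinearMap.congr_fun h1 v
  calc x * a = x * a * x⁻¹ * x := by group
    _ = a * x := by rw [← h2]

theorem Setup.card_gal_le (_ : Setup ρ A ψ) : Nat.card (K ≃ₐ[ZMod p] K) ≤ finrank (ZMod p) K := by
  haveI : Module.Finite (ZMod p) K := Module.Finite.of_finite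
  rw [Nat.card_eq_fintype_card]
  exact AlgEquiv.card_le (F := ZMod p) (K := K)

/-- An element of prime order larger than the degree centralizes `A`. -/
theorem Setup.centralizes_of_prime (S : Setup ρ A ψ) {x : G} {ℓ : ℕ} (hℓ : ℓ.Prime)
    (hf : finrank (ZMod p) K < ℓ) (hx : x ^ ℓ = 1) : ∀ a ∈ A, x * a = a * x := by
  obtain ⟨σ, hσ⟩ := exists_sigma ρ A ψ S.ψinj S.range
  apply S.centralizes_of_sigma σ hσ
  have h1 : orderOf (σ x) ∣ ℓ := orderOf_dvd_of_pow_eq_one (by rw [← map_pow, hx, map_one])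
  rcases (Nat.dvd_prime hℓ).1 h1 with h2 | h2
  · exact orderOf_eq_one_iff.1 h2
  · exfalso
    have h3 : orderOf (σ x) ∣ Nat.card (K ≃ₐ[ZMod p] K) := orderOf_dvd_natCard _
    have h4 := Nat.le_of_dvd Nat.card_pos h3
    have h5 := S.card_gal_le
    omega

/-- In degree one, everything centralizes `A`. -/
theorem Setup.centralizes_of_f_one (S : Setup ρ A ψ) (hf : finrank (ZMod p) K = 1) (x : G) :
    ∀ a ∈ A, x * a = a * x := by
  obtain ⟨σ, hσ⟩ := exists_sigma ρ A ψ S.ψinj S.range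
  apply S.centralizes_of_sigma σ hσ
  have h1 := S.card_gal_le
  rw [hf] at h1
  have h2 : Subsingleton (K ≃ₐ[ZMod p] K) := by
    rw [← Finite.card_le_one_iff_subsingleton]
    exact h1
  exact Subsingleton.elim _ _

/-- If `m ≥ 2`, something outside `A` centralizes `A`. -/
theorem Setup.exists_centralizing (S : Setup ρ A ψ) (hm : 2 ≤ finrank K V) :
    ∃ x : G, (∀ a ∈ A, x * a = a * x) ∧ x ∉ A := by
  classical
  by_contra hcon
  push Not at hcon
  obtain ⟨σ, hσ⟩ := exists_sigma ρ A ψ S.ψinj S.range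
  have hle : σ.ker ≤ A := fun x hx => hcon x (S.centralizes_of_sigma σ hσ hx)
  have h1 : Nat.card G ≤ Nat.card A * finrank (ZMod p) K := by
    rw [← Subgroup.card_mul_index σ.ker, Subgroup.index_ker]
    refine Nat.mul_le_mul (Subgroup.card_le_of_le hle) ?_
    exact (Nat.card_mono (Set.toFinite _) (Set.subset_univ _) |>.trans_eq (by simp)).trans S.card_gal_le
  have h2 := Nat.le_of_dvd Nat.card_pos (card_sub_one_dvd ρ S.trans)
  have h3 := S.card_A.2
  set f := finrank (ZMod p) K with hf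
  set P := p ^ f with hP
  have hPK : Nat.card V = P ^ finrank K V := by
    rw [S.card_V, pow_mul]
  have hP1 : 1 < P := Nat.one_lt_pow S.finrank_pos.ne' hp.out.one_lt
  have hfP : f < P := Nat.lt_pow_self hp.out.one_lt
  have h4 : Nat.card A ≤ P - 1 := Nat.le_of_dvd (by omega) h3
  have h5 : P * P ≤ Nat.card V := by
    rw [hPK, ← sq]
    exact Nat.pow_le_pow_right (by omega) hm
  obtain ⟨Q, hQ⟩ : ∃ Q, P = Q + 1 := ⟨P - 1, by omega⟩
  rw [hQ] at h4 h5 hfP
  simp only [Nat.add_sub_cancel] at h4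
  have h6 : (Q + 1) * (Q + 1) - 1 ≤ Q * f := by
    calc (Q + 1) * (Q + 1) - 1 ≤ Nat.card V - 1 := Nat.sub_le_sub_right h5 1
      _ ≤ Nat.card G := h2
      _ ≤ Nat.card A * f := h1
      _ ≤ Q * f := Nat.mul_le_mul_right _ h4
  have hQ0 : 0 < Q := by omega
  have h7 : (Q + 1) * (Q + 1) - 1 = Q * (Q + 2) := by
    have : (Q + 1) * (Q + 1) = Q * (Q + 2) + 1 := by ring
    omega
  rw [h7] at h6
  have h8 := Nat.le_of_mul_le_mul_left h6 hQ0
  omega

variable [Group.IsSolvable G]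

/-- A good section exists when `m ≥ 2`. -/
theorem Setup.exists_good (S : Setup ρ A ψ) (hm : 2 ≤ finrank K V) : ∃ N r, Good A N r := by
  obtain ⟨x, hx, hxA⟩ := S.exists_centralizing hm
  obtain ⟨N, r, h, -⟩ := exists_good_moved A S.comm S.max hx hxA
  exact ⟨N, r, h⟩

end Setup

section Form

variable {G : Type u} [Group G] {A N : Subgroup G} {r : ℕ} {M : Type u} [AddCommGroup M]
  [Module (ZMod r) M]

theorem FormData.π_one (D : FormData A N r M) : D.π 1 = 0 :=
  (D.zero 1).2 A.one_mem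

/-- An element acting trivially on the section has commutators in `A`. -/
theorem FormData.comm_mem_of_fix (D : FormData A N r M) (hN : N.Normal) {c : G}
    (hc : ∀ u, D.act c u = u) : ∀ t ∈ N, ⁅c, t⁆ ∈ A := by
  intro t ht
  have hs : c * t * c⁻¹ ∈ N := hN.conj_mem t ht c
  have h1 := D.act_π c ⟨t, ht⟩ ⟨c * t * c⁻¹, hs⟩ rfl
  rw [hc] at h1
  have h2 : D.π (⟨c * t * c⁻¹, hs⟩ * ⟨t, ht⟩⁻¹) = 0 := by
    rw [D.add, ← h1, ← D.add, mul_inv_cancel, D.π_one]
  have h3 := (D.zero _).1 h2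
  simpa [commutatorElement_def, mul_assoc] using h3

/-- A nondegenerate alternating form needs dimension two. -/
theorem FormData.sq_le [Fact r.Prime] [Finite M] (D : FormData A N r M) (hlt : A < N) :
    r ^ 2 ≤ Nat.card M := by
  obtain ⟨t, ht, htA⟩ := SetLike.exists_of_lt hlt
  have hu : D.π ⟨t, ht⟩ ≠ 0 := fun h => htA ((D.zero _).1 h)
  set u := D.π ⟨t, ht⟩ with hudef
  have h1 : ∃ v, D.B u v ≠ 0 := by
    by_contra hcon
    push Not at hcon
    exact hu (D.nd u hcon)
  obtain ⟨v, hv⟩ := h1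
  haveI : Module.Finite (ZMod r) M := Module.Finite.of_finite
  haveI : Nontrivial M := ⟨⟨u, 0, hu⟩⟩
  have h2 : finrank (ZMod r) M ≠ 1 := by
    intro h
    obtain ⟨c, hc⟩ := (finrank_eq_one_iff_of_nonzero' u hu).1 h v
    apply hv
    rw [← hc, map_smul, D.alt, smul_zero]
  have h3 : 0 < finrank (ZMod r) M := Module.finrank_pos
  rw [Module.natCard_eq_pow_finrank (K := ZMod r), Nat.card_zmod]
  exact Nat.pow_le_pow_right (Fact.out : r.Prime).pos (by omega)

end Form

section Setup2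

variable {p : ℕ} [hp : Fact p.Prime] {V : Type v} [AddCommGroup V] [Module (ZMod p) V] [Finite V]
  [Nontrivial V] {G : Type u} [Group G] [Finite G]
  {ρ : G →* (V ≃ₗ[ZMod p] V)} {A : Subgroup G} [A.Normal]
  {K : Type v} [Field K] [Algebra (ZMod p) K] [Finite K]
  {ψ : K →ₐ[ZMod p] Module.End (ZMod p) V}
  [Module K V]
  {N : Subgroup G} {r : ℕ} [Fact r.Prime] {M : Type u} [AddCommGroup M]
  [Module (ZMod r) M] [Finite M]

/-- The action of an element of prime order on a section. -/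
theorem prime_bound (h : Good A N r) (D : FormData A N r M)
    {y : G} (hyA : ∀ a ∈ A, y * a = a * y) {ℓ : ℕ} (hℓ : ℓ.Prime) (hℓ2 : ℓ ≠ 2)
    (hyℓ : y ^ ℓ = 1) (hdvd : ¬ ℓ ∣ Nat.card A) (hmoved : ¬ ∀ t ∈ N, y * t = t * y)
    (m : ℕ) (hm : Nat.card M ≤ m ^ 2) :
    ℓ ≤ m + 1 ∧ (ℓ = m + 1 → Nat.card M = m ^ 2 ∧ (∀ u, D.act y u = u → u = 0) ∧ ∃ i, m = r ^ i) := by
  have hcop : Nat.Coprime ℓ (Nat.card A) := (Nat.Prime.coprime_iff_not_dvd hℓ).2 hdvd
  apply symp_prime_bound D.B D.alt D.nd (D.act y) (D.iso y hyA) hℓ hℓ2 ?_ ?_ ?_ m hm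
  · rintro rfl
    exact hdvd D.dvd
  · rw [← map_pow, hyℓ, map_one]
  · intro hact
    apply hmoved
    refine centralizes_of_comm_mem A hyA h.cent ?_ hyℓ hcop
    apply D.comm_mem_of_fix h.normal
    intro u
    rw [hact]
    rfl

/-- `G / N` embeds in the symmetric group of the nonzero vectors of the section. -/
theorem index_dvd_factorial (D : FormData A N r M) (hker : ∀ c : G, (∀ u, D.act c u = u) → c ∈ N) :
    N.index ∣ (Nat.card M - 1).factorial := by
  classical
  haveI := Fintype.ofFinite M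
  let Φ : G →* Equiv.Perm {u : M // u ≠ 0} :=
    { toFun := fun g =>
        { toFun := fun u => ⟨D.act g u.1, fun h => u.2 ((D.act g).injective (by rw [h, map_zero]))⟩
          invFun := fun u => ⟨D.act g⁻¹ u.1, fun h => u.2 ((D.act g⁻¹).injective (by rw [h, map_zero]))⟩
          left_inv := fun u => Subtype.ext (by
            change D.act g⁻¹ (D.act g u.1) = u.1
            rw [← LinearEquiv.mul_apply, ← map_mul, inv_mul_cancel, map_one]
            rfl)
          right_inv := fun u => Subtype.ext (by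
            change D.act g (D.act g⁻¹ u.1) = u.1
            rw [← LinearEquiv.mul_apply, ← map_mul, mul_inv_cancel, map_one]
            rfl) }
      map_one' := by
        ext u
        simp
      map_mul' := by
        intro g h
        ext u
        simp }
  have hle : Φ.ker ≤ N := by
    intro c hc
    apply hker
    intro u
    by_cases hu : u = 0
    · rw [hu, map_zero]
    · have h1 : Φ c = 1 := hc
      have h2 := congrArg (fun f : Equiv.Perm {u : M // u ≠ 0} => (f ⟨u, hu⟩ : {u : M // u ≠ 0}).1) h1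
      exact h2
  have h1 : N.index ∣ Φ.ker.index := Subgroup.index_dvd_of_le hle
  rw [Subgroup.index_ker] at h1
  have h2 : Nat.card Φ.range ∣ Nat.card (Equiv.Perm {u : M // u ≠ 0}) := Subgroup.card_subgroup_dvd_card _
  rw [Nat.card_eq_fintype_card (α := Equiv.Perm {u : M // u ≠ 0}), Fintype.card_perm] at h2
  have h3 : Fintype.card {u : M // u ≠ 0} = Nat.card M - 1 := by
    rw [Nat.card_eq_fintype_card, Fintype.card_subtype_compl, Fintype.card_subtype_eq]
  rw [h3] at h2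
  exact h1.trans h2

end Setup2

section Analysis

variable {p : ℕ} [hp : Fact p.Prime] {V : Type v} [AddCommGroup V] [Module (ZMod p) V] [Finite V]
  [Nontrivial V] {G : Type u} [Group G] [Finite G]
  {ρ : G →* (V ≃ₗ[ZMod p] V)} {A : Subgroup G} [A.Normal]
  {K : Type v} [Field K] [Algebra (ZMod p) K] [Finite K]
  {ψ : K →ₐ[ZMod p] Module.End (ZMod p) V}
  [Module K V] [Group.IsSolvable G]

/-- A prime dividing `|G|`, large compared with the degree and not dividing `|A|`. -/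
theorem Setup.prime_package (S : Setup ρ A ψ) {ℓ : ℕ} (hℓ : ℓ.Prime) (hℓ2 : ℓ ≠ 2)
    (hf : finrank (ZMod p) K < ℓ) (hdvd : ℓ ∣ Nat.card G) (hA : ¬ ℓ ∣ Nat.card A) :
    ∃ (N : Subgroup G) (r : ℕ) (_ : Good A N r) (_ : Fact r.Prime) (M : Type u) (_ : AddCommGroup M)
      (_ : Module (ZMod r) M) (_ : Finite M) (_ : FormData A N r M),
      Nat.card M ≤ finrank K V ^ 2 ∧ ℓ ≤ finrank K V + 1 ∧
        (ℓ = finrank K V + 1 → Nat.card M = finrank K V ^ 2 ∧ ∃ i, finrank K V = r ^ i) := by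
  haveI : Fact ℓ.Prime := ⟨hℓ⟩
  obtain ⟨x, hx⟩ := exists_prime_orderOf_dvd_card' ℓ hdvd
  have hxℓ : x ^ ℓ = 1 := by rw [← hx]; exact pow_orderOf_eq_one x
  have hxA := S.centralizes_of_prime hℓ hf hxℓ
  have hxnot : x ∉ A := by
    intro hxmem
    apply hA
    have h1 : orderOf (⟨x, hxmem⟩ : A) ∣ Nat.card A := orderOf_dvd_natCard _
    rwa [Subgroup.orderOf_mk, hx] at h1
  obtain ⟨N, r, hG, hmoved⟩ := exists_good_moved A S.comm S.max hxA hxnot
  haveI : Fact r.Prime := ⟨hG.prime⟩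
  obtain ⟨M, i1, i2, i3, D, hM⟩ := exists_formData ρ A ψ S.inj S.ψinj S.range S.act S.max hG
  obtain ⟨h1, h2⟩ := prime_bound hG D hxA hℓ hℓ2 hxℓ hA hmoved _ hM
  exact ⟨N, r, hG, inferInstance, M, i1, i2, i3, D, hM, h1, fun h => ⟨(h2 h).1, (h2 h).2.2⟩⟩

/-- A primitive prime does not divide `|A|`. -/
theorem Setup.not_dvd_card_A (S : Setup ρ A ψ) (hm : 2 ≤ finrank K V) {ℓ : ℕ} (hℓ : ℓ.Prime)
    (hprim : IsPrimitiveRoot (p : ZMod ℓ) (finrank (ZMod p) K * finrank K V)) :
    ¬ ℓ ∣ Nat.card A := by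
  intro h
  haveI : Fact ℓ.Prime := ⟨hℓ⟩
  have h1 := h.trans S.card_A.2
  have hfp := S.finrank_pos
  have h2 : ((p ^ finrank (ZMod p) K - 1 : ℕ) : ZMod ℓ) = 0 := (ZMod.natCast_eq_zero_iff _ _).2 h1
  rw [Nat.cast_sub (Nat.one_le_pow _ _ hp.out.pos)] at h2
  push_cast at h2
  have h3 := hprim.dvd_of_pow_eq_one _ (sub_eq_zero.1 h2)
  have h4 := Nat.le_of_dvd hfp h3
  nlinarith

/-- The consequences of a primitive prime when `m ≥ 2`. -/
theorem Setup.prim_analysis (S : Setup ρ A ψ) (hm : 2 ≤ finrank K V) {ℓ : ℕ} (hℓ : ℓ.Prime)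
    (hn : 3 ≤ finrank (ZMod p) K * finrank K V)
    (hprim : IsPrimitiveRoot (p : ZMod ℓ) (finrank (ZMod p) K * finrank K V)) :
    finrank (ZMod p) K = 1 ∧ ℓ = finrank K V + 1 ∧
      (∃ N : Subgroup G, Good A N 2 ∧ Nat.card N = finrank K V ^ 2 * Nat.card A) ∧
      ∃ i, finrank K V = 2 ^ i := by
  haveI : Fact ℓ.Prime := ⟨hℓ⟩
  have hfp := S.finrank_pos
  set f := finrank (ZMod p) K with hf
  set m := finrank K V with hmdef
  have hnpos : 0 < f * m := by omega
  have hle : f * m + 1 ≤ ℓ := by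
    have h1 := Cfsg.Agent.Lib.Classical.Spectra.Ppd.dvd_sub_one hprim hnpos
    have h2 := Nat.le_of_dvd (by have := hℓ.two_le; omega) (show f * m ∣ ℓ - 1 from h1)
    have := hℓ.two_le
    omega
  have hℓ2 : ℓ ≠ 2 := by omega
  have hfm : f ≤ f * m := Nat.le_mul_of_pos_right _ (by omega)
  have hdvd : ℓ ∣ Nat.card G := by
    have h1 : ((p ^ (f * m) - 1 : ℕ) : ZMod ℓ) = 0 := by
      rw [Nat.cast_sub (Nat.one_le_pow _ _ hp.out.pos)]
      push_cast
      exact sub_eq_zero.2 hprim.pow_eq_one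
    have h2 : ℓ ∣ p ^ (f * m) - 1 := (ZMod.natCast_eq_zero_iff _ _).1 h1
    have h3 := card_sub_one_dvd ρ S.trans
    rw [S.card_V] at h3
    exact h2.trans h3
  have hA := S.not_dvd_card_A hm hℓ hprim
  obtain ⟨N, r, hG, i0, M, i1, i2, i3, D, hM, h1, h2⟩ :=
    S.prime_package hℓ hℓ2 (by omega) hdvd hA
  have hf1 : f = 1 := by
    have h3 : f * m ≤ 1 * m := by omega
    have h4 := Nat.le_of_mul_le_mul_right h3 (by omega)
    omega
  have hℓm : ℓ = m + 1 := by
    rw [hf1, one_mul] at hle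
    omega
  obtain ⟨h3, i, hi⟩ := h2 hℓm
  have hr : r = 2 := by
    have h4 : Even m := by
      have h5 : Odd ℓ := hℓ.odd_of_ne_two hℓ2
      rw [hℓm] at h5
      by_contra hne
      rw [Nat.not_even_iff_odd] at hne
      exact (Nat.not_even_iff_odd.2 h5) (hne.add_odd odd_one)
    have hi' : m = r ^ i := hi
    rw [hi', even_iff_two_dvd] at h4
    have h5 := Nat.prime_two.dvd_of_dvd_pow h4
    exact ((Nat.prime_dvd_prime_iff_eq Nat.prime_two hG.prime).1 h5).symm
  subst hr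
  refine ⟨hf1, hℓm, ⟨N, hG, ?_⟩, i, hi⟩
  rw [← D.card, h3]

/-- The Sylow subgroups for the primitive prime are of prime order. -/
theorem Setup.not_sq_dvd (S : Setup ρ A ψ) (hm : 2 ≤ finrank K V) (hf : finrank (ZMod p) K = 1)
    {N : Subgroup G} (hG : Good A N 2) (hcard : Nat.card N = finrank K V ^ 2 * Nat.card A)
    {ℓ : ℕ} (hℓ : ℓ.Prime) (hℓ2 : ℓ ≠ 2) (hA : ¬ ℓ ∣ Nat.card A) (hℓm : ℓ = finrank K V + 1) :
    ¬ ℓ ^ 2 ∣ Nat.card G := by
  classical
  haveI : Fact ℓ.Prime := ⟨hℓ⟩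
  haveI : Fact (Nat.Prime 2) := ⟨Nat.prime_two⟩
  obtain ⟨M, i1, i2, i3, D, hM⟩ := exists_formData ρ A ψ S.inj S.ψinj S.range S.act S.max hG
  have hcM : Nat.card M = finrank K V ^ 2 := by
    have h1 := D.card
    rw [hcard] at h1
    exact Nat.eq_of_mul_eq_mul_right Nat.card_pos h1
  intro hdvd
  obtain ⟨P, hP⟩ := Sylow.exists_subgroup_card_pow_prime ℓ hdvd
  have hcc : ∀ y : G, (∀ t ∈ N, y * t = t * y) → y ∈ A := fun y hy =>
    centralizer_eq_of_card ρ A ψ S.inj S.ψinj S.range S.act S.comm S.max hG hcard.ge hy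
  letI act : MulAction P {u : M // u ≠ 0} :=
    { smul := fun g u => ⟨D.act (g : G) u.1, fun h => u.2 ((D.act (g : G)).injective (by rw [h, map_zero]))⟩
      one_smul := fun u => Subtype.ext (by
        change D.act ((1 : P) : G) u.1 = u.1
        simp)
      mul_smul := fun g h u => Subtype.ext (by
        change D.act ((g * h : P) : G) u.1 = D.act (g : G) (D.act (h : G) u.1)
        simp) }
  haveI := Fintype.ofFinite M
  have hfree : ∀ (g : P) (u : {u : M // u ≠ 0}), g • u = u → g = 1 := by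
    intro g u hgu
    by_contra hg
    have hgu' : D.act (g : G) u.1 = u.1 := congrArg Subtype.val hgu
    have hord : orderOf (g : G) ∣ ℓ ^ 2 := by
      rw [Subgroup.orderOf_coe, ← hP]
      exact orderOf_dvd_natCard _
    have hord1 : orderOf (g : G) ≠ 1 := by
      intro h
      apply hg
      exact Subtype.ext (orderOf_eq_one_iff.1 h)
    obtain ⟨j, -, hj⟩ := (Nat.dvd_prime_pow hℓ).1 hord
    have hj0 : j ≠ 0 := by
      rintro rfl
      exact hord1 (by simpa using hj)
    have hℓo : ℓ ∣ orderOf (g : G) := by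
      rw [hj]
      exact dvd_pow_self _ hj0
    set y : G := (g : G) ^ (orderOf (g : G) / ℓ) with hy
    have hyo : orderOf y = ℓ := orderOf_pow_orderOf_div (by rw [hj]; exact pow_ne_zero _ hℓ.ne_zero) hℓo
    have hyℓ : y ^ ℓ = 1 := by rw [← hyo]; exact pow_orderOf_eq_one y
    have hyu : D.act y u.1 = u.1 := by
      rw [hy, map_pow]
      have : ∀ k : ℕ, (D.act (g : G) ^ k) u.1 = u.1 := by
        intro k
        induction k with
        | zero => rfl
        | succ k ih =>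
          rw [pow_succ, LinearEquiv.mul_apply, hgu', ih]
      exact this _
    have hmoved : ¬ ∀ t ∈ N, y * t = t * y := by
      intro hall
      have hyA := hcc y hall
      apply hA
      have h1 : orderOf (⟨y, hyA⟩ : A) ∣ Nat.card A := orderOf_dvd_natCard _
      rwa [Subgroup.orderOf_mk, hyo] at h1
    have hb := prime_bound hG D (S.centralizes_of_f_one hf y) hℓ hℓ2 hyℓ hA hmoved _ hM
    exact u.2 ((hb.2 hℓm).2.1 _ hyu)
  have h1 := card_dvd_of_free hfree
  rw [hP] at h1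
  have h2 : Nat.card {u : M // u ≠ 0} = Nat.card M - 1 := by
    rw [Nat.card_eq_fintype_card, Nat.card_eq_fintype_card, Fintype.card_subtype_compl,
      Fintype.card_subtype_eq]
  rw [h2, hcM] at h1
  set m := finrank K V with hmdef
  have h3 : m ^ 2 - 1 = ℓ * (m - 1) := by
    rw [hℓm]
    have := Nat.mul_self_sub_mul_self_eq m 1
    simpa [sq] using this
  rw [h3, sq] at h1
  have h4 : ℓ ∣ m - 1 := Nat.dvd_of_mul_dvd_mul_left hℓ.pos h1
  have h5 := Nat.le_of_dvd (by omega) h4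
  omega

/-- The case of dimension two. -/
theorem Setup.n_two (S : Setup ρ A ψ) (hf : finrank (ZMod p) K = 1) (hm : finrank K V = 2) :
    p ≠ 2 ∧ (p + 1) ∣ 24 ∧ ∃ N : Subgroup G, Good A N 2 ∧ Nat.card N = finrank K V ^ 2 * Nat.card A := by
  obtain ⟨N, r, hG⟩ := S.exists_good hm.ge
  haveI : Fact r.Prime := ⟨hG.prime⟩
  obtain ⟨M, i1, i2, i3, D, hM⟩ := exists_formData ρ A ψ S.inj S.ψinj S.range S.act S.max hG
  have h1 := D.sq_le hG.lt
  rw [hm] at hM
  have hr : r = 2 := by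
    have h2 := hG.prime.two_le
    have h3 : r ^ 2 ≤ 2 ^ 2 := h1.trans hM
    have h4 := (Nat.pow_le_pow_iff_left (by norm_num)).1 h3
    omega
  subst hr
  have hcM : Nat.card M = 4 := by omega
  have hcN : Nat.card N = 4 * Nat.card A := by rw [← D.card, hcM]
  have hAd : Nat.card A ∣ p - 1 := by
    have := S.card_A.2
    rwa [hf, pow_one] at this
  have hp2 : p ≠ 2 := by
    rintro rfl
    have h3 := D.dvd.trans hAd
    norm_num at h3
  have hcard' : finrank K V ^ 2 * Nat.card A ≤ Nat.card N := by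
    rw [hm, hcN]
    norm_num
  have hidx : N.index ∣ 6 := by
    have := index_dvd_factorial D (fun c hc =>
      mem_of_comm_mem ρ A ψ S.inj S.ψinj S.range S.act S.comm S.max hG hcard'
        (S.centralizes_of_f_one hf c) (D.comm_mem_of_fix hG.normal hc))
    rw [hcM] at this
    exact this
  refine ⟨hp2, ?_, N, hG, by rw [hm, hcN]; norm_num⟩
  have hV := card_sub_one_dvd ρ S.trans
  rw [S.card_V, hf, hm] at hV
  have h5 : Nat.card G ∣ 24 * (p - 1) := by
    rw [← Subgroup.card_mul_index N, hcN]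
    calc 4 * Nat.card A * N.index = (Nat.card A) * (4 * N.index) := by ring
      _ ∣ (p - 1) * (4 * 6) := Nat.mul_dvd_mul hAd (Nat.mul_dvd_mul_left 4 hidx)
      _ = 24 * (p - 1) := by ring
  have h6 := hV.trans h5
  obtain ⟨c, hc⟩ : ∃ c, p = c + 1 := ⟨p - 1, by have := hp.out.pos; omega⟩
  have hc0 : 0 < c := by
    have := hp.out.two_le
    omega
  rw [hc] at h6 ⊢
  have h7 : (c + 1) ^ (1 * 2) - 1 = c * (c + 1 + 1) := by
    have : (c + 1) ^ (1 * 2) = c * (c + 1 + 1) + 1 := by ring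
    omega
  rw [h7] at h6
  simp only [Nat.add_sub_cancel] at h6
  rw [mul_comm 24 c] at h6
  exact Nat.dvd_of_mul_dvd_mul_left hc0 h6

/-- A good section has `r ∣ |A|`. -/
theorem Setup.dvd_of_good (S : Setup ρ A ψ) {N : Subgroup G} {r : ℕ} (hG : Good A N r) :
    r ∣ Nat.card A := by
  haveI : Fact r.Prime := ⟨hG.prime⟩
  obtain ⟨M, i1, i2, i3, D, hM⟩ := exists_formData ρ A ψ S.inj S.ψinj S.range S.act S.max hG
  exact D.dvd

/-- The case `(p, n) = (2, 6)` does not occur for `m ≥ 2`. -/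
theorem Setup.not_two_six (S : Setup ρ A ψ) (hm : 2 ≤ finrank K V) (hp2 : p = 2)
    (hn : finrank (ZMod p) K * finrank K V = 6) : False := by
  have hfp := S.finrank_pos
  have hAd := S.card_A.2
  set f := finrank (ZMod p) K with hf
  set m := finrank K V with hmdef
  have hf3 : f ≤ 3 := by nlinarith
  subst hp2
  interval_cases hfv : f
  · -- `f = 1`
    obtain ⟨N, r, hG⟩ := S.exists_good hm
    have h1 := (S.dvd_of_good hG).trans hAd
    have h2 := Nat.le_of_dvd (by norm_num) h1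
    have h3 := hG.prime.two_le
    norm_num at h2
    omega
  · -- `f = 2`, `ℓ = 7`
    have hm3 : m = 3 := by omega
    have hV := card_sub_one_dvd ρ S.trans
    rw [S.card_V, ← hf, ← hmdef, hm3] at hV
    have h7 : 7 ∣ Nat.card G := (by norm_num : 7 ∣ 2 ^ (2 * 3) - 1).trans hV
    have hA : ¬ 7 ∣ Nat.card A := by
      intro h
      have := h.trans hAd
      norm_num at this
    obtain ⟨N, r, hG, i0, M, i1, i2, i3, D, hM, h1, h2⟩ :=
      S.prime_package (ℓ := 7) (by norm_num) (by norm_num) (by omega) h7 hA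
    omega
  · -- `f = 3`
    have hm2 : m = 2 := by omega
    obtain ⟨N, r, hG⟩ := S.exists_good hm
    haveI : Fact r.Prime := ⟨hG.prime⟩
    obtain ⟨M, i1, i2, i3, D, hM⟩ := exists_formData ρ A ψ S.inj S.ψinj S.range S.act S.max hG
    have h1 := D.sq_le hG.lt
    have h2 : r ∣ 7 := D.dvd.trans hAd
    have h3 : r = 7 := (Nat.prime_dvd_prime_iff_eq hG.prime (by norm_num)).1 h2
    rw [← hmdef, hm2] at hM
    rw [h3] at h1
    omega

/-- **The structure theorem.** -/
theorem Setup.core (S : Setup ρ A ψ) :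
    finrank K V = 1 ∨ (finrank (ZMod p) K = 1 ∧
      (∃ N : Subgroup G, Good A N 2 ∧ Nat.card N = finrank K V ^ 2 * Nat.card A) ∧
      ((finrank K V = 2 ∧ p ≠ 2 ∧ (p + 1) ∣ 24) ∨ (finrank K V = 4 ∧ p = 3))) := by
  have hfp := S.finrank_pos
  have hmp := S.finrank_V_pos
  by_cases hm1 : finrank K V = 1
  · exact Or.inl hm1
  right
  have hm : 2 ≤ finrank K V := by omega
  by_cases hn2 : finrank (ZMod p) K * finrank K V = 2
  · have hf1 : finrank (ZMod p) K = 1 := by nlinarith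
    have hm2 : finrank K V = 2 := by
      rw [hf1, one_mul] at hn2
      exact hn2
    obtain ⟨h1, h2, h3⟩ := S.n_two hf1 hm2
    exact ⟨hf1, h3, Or.inl ⟨hm2, h1, h2⟩⟩
  have hn3 : 3 ≤ finrank (ZMod p) K * finrank K V := by
    have : 2 ≤ finrank (ZMod p) K * finrank K V := by nlinarith
    omega
  have hex : ¬ (p = 2 ∧ finrank (ZMod p) K * finrank K V = 6) :=
    fun h => S.not_two_six hm h.1 h.2
  obtain ⟨ℓ, hℓ, hprim⟩ := exists_prim hp.out hn3 hex
  obtain ⟨hf1, hℓm, ⟨N, hG, hcN⟩, i, hi⟩ := S.prim_analysis hm hℓ hn3 hprim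
  refine ⟨hf1, ⟨N, hG, hcN⟩, Or.inr ?_⟩
  rw [hf1, one_mul] at hn3 hprim
  have hA := S.not_dvd_card_A hm hℓ (by rw [hf1, one_mul]; exact hprim)
  have hp2 : p ≠ 2 := by
    rintro rfl
    have h1 := (S.dvd_of_good hG).trans S.card_A.2
    rw [hf1] at h1
    norm_num at h1
  have hℓ2 : ℓ ≠ 2 := by omega
  have hsq := S.not_sq_dvd hm hf1 hG hcN hℓ hℓ2 hA hℓm
  obtain ⟨j, hj⟩ : ∃ j, i = j + 2 := by
    refine ⟨i - 2, ?_⟩
    have : 2 ≤ i := by
      by_contra hcon
      have hi2 : i < 2 := by omega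
      interval_cases i <;> omega
    omega
  have hk : finrank K V = 2 * 2 ^ (j + 1) := by
    rw [hi, hj]
    ring
  have hprim' : ∀ q : ℕ, q.Prime → IsPrimitiveRoot (p : ZMod q) (2 * 2 ^ (j + 1)) →
      q = 2 * 2 ^ (j + 1) + 1 := by
    intro q hq hqp
    rw [← hk] at hqp ⊢
    have h1 : IsPrimitiveRoot (p : ZMod q) (finrank (ZMod p) K * finrank K V) := by
      rw [hf1, one_mul]
      exact hqp
    exact (S.prim_analysis hm hq (by rw [hf1, one_mul]; exact hn3) h1).2.1
  have hsq' : ¬ (2 * 2 ^ (j + 1) + 1) ^ 2 ∣ p ^ (2 * 2 ^ (j + 1)) - 1 := by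
    rw [← hk, ← hℓm]
    intro h
    apply hsq
    have hV := card_sub_one_dvd ρ S.trans
    rw [S.card_V, hf1, one_mul] at hV
    exact h.trans hV
  obtain ⟨h1, h2⟩ := arith_final hp.out hp2 j rfl hprim' hsq'
  refine ⟨?_, h1⟩
  rw [hk, h2]

end Analysis

end Cfsg.Agent.Lib.SolvLin
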