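import Mathlib
import Cfsg.Agent.Lib.SolvLin.Huppert

/-!
# Solvable transitive linear groups: the final statements
-/

set_option autoImplicit false

namespace Cfsg.Agent.Lib.SolvLin

open Module
open scoped commutatorElement

universe u v

section Groups

variable {G : Type u} [Group G] {A N : Subgroup G} {r : ℕ}

/-- A section is never the whole group. -/
theorem Good.ne_top [A.Normal] (h : Good A N r)
    (hmax : ∀ B : Subgroup G, B.Normal → (∀ x ∈ B, ∀ y ∈ B, x * y = y * x) → A ≤ B → B = A) :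
    N ≠ ⊤ := by
  rintro rfl
  obtain ⟨t, -, htA⟩ := SetLike.exists_of_lt h.lt
  let q : G →* G ⧸ A := QuotientGroup.mk' A
  let B : Subgroup G := (Subgroup.zpowers (q t)).comap q
  have hcommq : ∀ x y : G, q ⁅x, y⁆ = 1 := fun x y =>
    (QuotientGroup.eq_one_iff _).2 (h.comm x trivial y trivial)
  have hB : B.Normal := by
    refine ⟨fun x hx g => ?_⟩
    have h1 : q (g * x * g⁻¹) = q x := by
      have h2 := hcommq g x
      rw [map_commutatorElement] at h2
      have h3 : q g * q x = q x * q g := commutatorElement_eq_one_iff_mul_comm.1 h2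
      rw [map_mul, map_mul, map_inv, h3]
      group
    change q (g * x * g⁻¹) ∈ Subgroup.zpowers (q t)
    rw [h1]
    exact hx
  have hform : ∀ x ∈ B, ∃ (a : G) (k : ℤ), a ∈ A ∧ x = a * t ^ k := by
    intro x hx
    obtain ⟨k, hk⟩ := Subgroup.mem_zpowers_iff.1 hx
    refine ⟨x * (t ^ k)⁻¹, k, ?_, by group⟩
    apply (QuotientGroup.eq_one_iff _).1
    change q (x * (t ^ k)⁻¹) = 1
    rw [map_mul, map_inv, map_zpow, hk, mul_inv_cancel]
  have hcent : ∀ a ∈ A, ∀ g : G, a * g = g * a := fun a ha g => (h.cent g trivial a ha).symm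
  have hab : ∀ x ∈ B, ∀ y ∈ B, x * y = y * x := by
    intro x hx y hy
    obtain ⟨a, k, ha, rfl⟩ := hform x hx
    obtain ⟨b, l, hb, rfl⟩ := hform y hy
    have h1 : t ^ k * t ^ l = t ^ l * t ^ k := by
      rw [← zpow_add, ← zpow_add, add_comm]
    calc a * t ^ k * (b * t ^ l) = a * (t ^ k * b) * t ^ l := by group
      _ = a * (b * t ^ k) * t ^ l := by rw [hcent b hb]
      _ = b * (a * (t ^ k * t ^ l)) := by
        rw [← mul_assoc a b, hcent a ha b]
        group
      _ = b * (a * (t ^ l * t ^ k)) := by rw [h1]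
      _ = b * (t ^ l * a * t ^ k) := by rw [← mul_assoc a, hcent a ha]
      _ = b * t ^ l * (a * t ^ k) := by group
  have hAB : A ≤ B := by
    intro a ha
    have h1 : q a = 1 := (QuotientGroup.eq_one_iff _).2 ha
    change q a ∈ Subgroup.zpowers (q t)
    rw [h1]
    exact Subgroup.one_mem _
  have hBA := hmax B hB hab hAB
  apply htA
  rw [← hBA]
  exact Subgroup.mem_zpowers (q t)

end Groups

theorem prime_of_dvd24 {p : ℕ} (hp : p.Prime) (h2 : p ≠ 2) (h : (p + 1) ∣ 24) :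
    p = 3 ∨ p = 5 ∨ p = 7 ∨ p = 11 ∨ p = 23 := by
  have hle : p ≤ 23 := by
    have := Nat.le_of_dvd (by norm_num) h
    omega
  interval_cases p <;> first | omega | (exfalso; revert hp; norm_num; done)

section Top

variable {p : ℕ} [hp : Fact p.Prime] {V : Type v} [AddCommGroup V] [Module (ZMod p) V] [Finite V]
  [Nontrivial V] {G : Type u} [Group G] [Finite G]

/-- A regular group has order `|V| - 1`. -/
theorem card_of_regular (ρ : G →* (V ≃ₗ[ZMod p] V))
    (htrans : ∀ v w : V, v ≠ 0 → w ≠ 0 → ∃ g : G, ρ g v = w)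
    (hreg : ∀ v : V, v ≠ 0 → ∀ g : G, ρ g v = v → g = 1) :
    Nat.card G = Nat.card V - 1 := by
  classical
  haveI := Fintype.ofFinite V
  letI act : MulAction G {v : V // v ≠ 0} :=
    { smul := fun g v => ⟨ρ g v.1, fun h => v.2 ((ρ g).injective (by rw [h, map_zero]))⟩
      one_smul := fun v => Subtype.ext (by change ρ 1 v.1 = v.1; simp)
      mul_smul := fun g h v => Subtype.ext (by change ρ (g * h) v.1 = ρ g (ρ h v.1); simp) }
  have h1 : Nat.card G ∣ Nat.card {v : V // v ≠ 0} :=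
    card_dvd_of_free (P := G) (fun g u hgu => hreg u.1 u.2 g (congrArg Subtype.val hgu))
  have h2 : Nat.card {v : V // v ≠ 0} = Nat.card V - 1 := by
    rw [Nat.card_eq_fintype_card, Nat.card_eq_fintype_card, Fintype.card_subtype_compl,
      Fintype.card_subtype_eq]
  rw [h2] at h1
  exact Nat.dvd_antisymm h1 (card_sub_one_dvd ρ htrans)

/-- There is a maximal abelian normal subgroup and its field. -/
theorem exists_setup (ρ : G →* (V ≃ₗ[ZMod p] V)) (hρ : Function.Injective ρ)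
    (htrans : ∀ v w : V, v ≠ 0 → w ≠ 0 → ∃ g : G, ρ g v = w) :
    ∃ (A : Subgroup G) (_ : A.Normal) (K : Type v) (_ : Field K) (_ : Algebra (ZMod p) K)
      (_ : Finite K) (ψ : K →ₐ[ZMod p] Module.End (ZMod p) V) (_ : Module K V), Setup ρ A ψ := by
  classical
  have hwf : WellFoundedGT (Subgroup G) := Finite.to_wellFoundedGT
  obtain ⟨A, ⟨hAn, hAc⟩, hmin⟩ := hwf.wf.has_min
    {B : Subgroup G | B.Normal ∧ ∀ x ∈ B, ∀ y ∈ B, x * y = y * x}
    ⟨⊥, inferInstance, by
      intro x hx y hy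
      rw [Subgroup.mem_bot] at hx hy
      rw [hx, hy]⟩
  haveI := hAn
  obtain ⟨K, i1, i2, i3, ψ, hψ, hr⟩ := exists_field_of_abelian_normal ρ htrans A hAc
  letI iM : Module K V := Module.compHom V (ψ : K →+* Module.End (ZMod p) V)
  refine ⟨A, hAn, K, i1, i2, i3, ψ, iM, ⟨hρ, htrans, hψ, hr, fun k v => rfl, hAc, ?_⟩⟩
  intro B hBn hBc hAB
  by_contra hne
  exact hmin B ⟨hBn, hBc⟩ (lt_of_le_of_ne hAB (Ne.symm hne))

variable {ρ : G →* (V ≃ₗ[ZMod p] V)} {A : Subgroup G} [A.Normal]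
  {K : Type v} [Field K] [Algebra (ZMod p) K] [Finite K]
  {ψ : K →ₐ[ZMod p] Module.End (ZMod p) V}
  [Module K V]

/-- One-dimensional case: the group is semilinear. -/
theorem Setup.semilinear (S : Setup ρ A ψ) (hm : finrank K V = 1) :
    ∃ (F : Type) (_ : Field F) (_ : Fintype F) (e : V ≃+ F),
      ∀ g : G, ∃ (a : F) (σ : F ≃+* F), ∀ v : V, e (ρ g v) = a * σ (e v) := by
  classical
  obtain ⟨v₀, hv₀⟩ := exists_ne (0 : V)
  have hspan := (finrank_eq_one_iff_of_nonzero' v₀ hv₀).1 hm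
  let e₁ : K ≃ₗ[K] V := LinearEquiv.ofBijective (LinearMap.toSpanSingleton K V v₀)
    ⟨by
      rw [injective_iff_map_eq_zero]
      intro k hk
      by_contra hk0
      apply hv₀
      have h1 : k • v₀ = 0 := hk
      exact (smul_eq_zero.1 h1).resolve_left hk0,
    fun v => by
      obtain ⟨c, hc⟩ := hspan v
      exact ⟨c, hc⟩⟩
  have he₁ : ∀ k, e₁ k = k • v₀ := fun k => rfl
  haveI := Fintype.ofFinite K
  have hcK : Nat.card K = p ^ finrank (ZMod p) K := card_eq_pow_K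
  let θ : K ≃ₐ[ZMod p] GaloisField p (finrank (ZMod p) K) :=
    GaloisField.algEquivGaloisField p (finrank (ZMod p) K) hcK
  obtain ⟨σ, hσ⟩ := exists_sigma ρ A ψ S.ψinj S.range
  refine ⟨GaloisField p (finrank (ZMod p) K), inferInstance, Fintype.ofEquiv K θ.toEquiv,
    (e₁.symm.toAddEquiv).trans θ.toRingEquiv.toAddEquiv, ?_⟩
  intro g
  refine ⟨θ (e₁.symm (ρ g v₀)), (θ.symm.toRingEquiv.trans (σ g).toRingEquiv).trans θ.toRingEquiv, ?_⟩
  intro v
  obtain ⟨k, rfl⟩ := e₁.surjective v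
  have key : ρ g (e₁ k) = e₁ (σ g k * e₁.symm (ρ g v₀)) := by
    rw [he₁, he₁, mul_smul, ← he₁ (e₁.symm (ρ g v₀)), LinearEquiv.apply_symm_apply, S.act, S.act]
    have h1 := hσ g k
    rw [h1]
    change ρ g (ψ k v₀) = ρ g (ψ k (ρ g⁻¹ (ρ g v₀)))
    congr 2
    rw [← LinearEquiv.mul_apply, ← map_mul, inv_mul_cancel, map_one]
    rfl
  change θ (e₁.symm (ρ g (e₁ k))) = θ (e₁.symm (ρ g v₀)) *
    θ (σ g (θ.symm (θ (e₁.symm (e₁ k)))))
  rw [key, LinearEquiv.symm_apply_apply, LinearEquiv.symm_apply_apply, map_mul, AlgEquiv.symm_apply_apply,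
    mul_comm]

/-- In dimension one, `A` is irreducible. -/
theorem Setup.invariant_top (S : Setup ρ A ψ) (hm : finrank K V = 1) (W : Submodule (ZMod p) V)
    (hW : W ≠ ⊥) (hWi : ∀ a ∈ A, ∀ v ∈ W, ρ a v ∈ W) : W = ⊤ := by
  have h1 : ∀ X ∈ Algebra.adjoin (ZMod p) (endOf ρ '' (A : Set G)), ∀ v ∈ W, X v ∈ W := by
    intro X hX
    refine Algebra.adjoin_induction (p := fun X _ => ∀ v ∈ W, X v ∈ W) ?_ ?_ ?_ ?_ hX
    · rintro _ ⟨a, ha, rfl⟩ v hv
      exact hWi a ha v hv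
    · intro c v hv
      exact W.smul_mem c hv
    · intro X Y _ _ hX hY v hv
      exact W.add_mem (hX v hv) (hY v hv)
    · intro X Y _ _ hX hY v hv
      exact hX _ (hY v hv)
  obtain ⟨w, hwW, hw⟩ := (Submodule.ne_bot_iff _).1 hW
  have hspan := (finrank_eq_one_iff_of_nonzero' w hw).1 hm
  rw [eq_top_iff]
  intro v _
  obtain ⟨k, rfl⟩ := hspan v
  rw [S.act]
  apply h1 _ _ _ hwW
  rw [← S.range]
  exact ⟨k, rfl⟩

/-- In the exceptional cases with a regular action, the size of `V` is further restricted. -/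
theorem Setup.not_of_regular [Group.IsSolvable G] (S : Setup ρ A ψ)
    (hreg : ∀ v : V, v ≠ 0 → ∀ g : G, ρ g v = v → g = 1)
    (hf : finrank (ZMod p) K = 1) {N : Subgroup G} (hG : Good A N 2)
    (hcN : Nat.card N = finrank K V ^ 2 * Nat.card A)
    (h : (finrank K V = 2 ∧ p = 3) ∨ (finrank K V = 4 ∧ p = 3)) : False := by
  have hcG := card_of_regular ρ S.trans hreg
  have hd := (S.dvd_of_good hG)
  have hAd := S.card_A.2
  rw [hf, pow_one] at hAd
  rcases h with ⟨hm, rfl⟩ | ⟨hm, rfl⟩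
  · rw [S.card_V, hf, hm] at hcG
    have hcA : Nat.card A = 2 := by
      have h1 := Nat.le_of_dvd (by norm_num) hAd
      have h2 := Nat.le_of_dvd Nat.card_pos hd
      omega
    rw [hm, hcA] at hcN
    have hN : N = ⊤ := by
      apply Subgroup.eq_top_of_card_eq
      rw [hcN, hcG]
      norm_num
    exact hG.ne_top S.max hN
  · rw [S.card_V, hf, hm] at hcG
    have hcA : Nat.card A = 2 := by
      have h1 := Nat.le_of_dvd (by norm_num) hAd
      have h2 := Nat.le_of_dvd Nat.card_pos hd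
      omega
    rw [hm, hcA] at hcN
    have h3 := Subgroup.card_subgroup_dvd_card N
    rw [hcN, hcG] at h3
    norm_num at h3

end Top

section Final

variable {p : ℕ} [hp : Fact p.Prime] {V : Type v} [AddCommGroup V] [Module (ZMod p) V] [Finite V]
  [Nontrivial V] {G : Type u} [Group G] [Finite G] [Group.IsSolvable G]

/-- **Huppert's theorem.** -/
theorem huppert (ρ : G →* (V ≃ₗ[ZMod p] V)) (hρ : Function.Injective ρ)
    (htrans : ∀ v w : V, v ≠ 0 → w ≠ 0 → ∃ g : G, ρ g v = w) :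
    (∃ (F : Type) (_ : Field F) (_ : Fintype F) (e : V ≃+ F),
        ∀ g : G, ∃ (a : F) (σ : F ≃+* F), ∀ v : V, e (ρ g v) = a * σ (e v)) ∨
    Nat.card V ∈ ({9, 25, 49, 121, 529, 81} : Set ℕ) := by
  obtain ⟨A, hA, K, i1, i2, i3, ψ, i4, S⟩ := exists_setup ρ hρ htrans
  rcases S.core with hm | ⟨hf, -, h⟩
  · exact Or.inl (S.semilinear hm)
  right
  rw [S.card_V, hf, one_mul]
  rcases h with ⟨hm, h2, h3⟩ | ⟨hm, h3⟩
  · rw [hm]
    rcases prime_of_dvd24 hp.out h2 h3 with rfl | rfl | rfl | rfl | rfl <;> simp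
  · rw [hm, h3]
    simp

/-- **Huppert's theorem, regular case: the first statement.** -/
theorem huppert_regular (ρ : G →* (V ≃ₗ[ZMod p] V)) (hρ : Function.Injective ρ)
    (htrans : ∀ v w : V, v ≠ 0 → w ≠ 0 → ∃ g : G, ρ g v = w)
    (hreg : ∀ v : V, v ≠ 0 → ∀ g : G, ρ g v = v → g = 1) :
    (∃ (F : Type) (_ : Field F) (_ : Fintype F) (e : V ≃+ F),
        ∀ g : G, ∃ (a : F) (σ : F ≃+* F), ∀ v : V, e (ρ g v) = a * σ (e v)) ∨
    Nat.card V ∈ ({25, 49, 121, 529} : Set ℕ) := by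
  obtain ⟨A, hA, K, i1, i2, i3, ψ, i4, S⟩ := exists_setup ρ hρ htrans
  rcases S.core with hm | ⟨hf, ⟨N, hG, hcN⟩, h⟩
  · exact Or.inl (S.semilinear hm)
  right
  rw [S.card_V, hf, one_mul]
  rcases h with ⟨hm, h2, h3⟩ | ⟨hm, h3⟩
  · rw [hm]
    rcases prime_of_dvd24 hp.out h2 h3 with rfl | rfl | rfl | rfl | rfl
    · exact (S.not_of_regular hreg hf hG hcN (Or.inl ⟨hm, rfl⟩)).elim
    all_goals simp
  · exact (S.not_of_regular hreg hf hG hcN (Or.inr ⟨hm, h3⟩)).elim

end Final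

end Cfsg.Agent.Lib.SolvLin
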